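import Cfsg.Agent.Lib.Char.ClassSum
import Cfsg.Agent.Lib.Char.Extend
import Cfsg.Agent.Lib.Char.Conj
import Cfsg.Agent.Lib.Char.Clifford
import Cfsg.Agent.Lib.CharDeep.GallagherExt
import Mathlib.Tactic

/-!
# Fully ramified characters: no self-centralizing cyclic subgroup of the section
-/

set_option autoImplicit false
set_option linter.unusedSectionVars false
set_option linter.style.haveILetI false

namespace Cfsg.Agent.Lib.BlockH.FullyRam

open Cfsg Module
open Cfsg.Agent.Lib.Char.Basic Cfsg.Agent.Lib.Char.Ortho Cfsg.Agent.Lib.Char.Complete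
open Cfsg.Agent.Lib.Char.Conj Cfsg.Agent.Lib.Char.Clifford Cfsg.Agent.Lib.Char.ClassSum
open scoped ComplexConjugate

universe u

section Sum

variable {H : Type u} [Group H] [Fintype H] (Z : Subgroup H) [hZ : Z.Normal] [Fintype Z]

/-- Multiplying by an invariant class function on `Z` acts on an irreducible character of `H`
through a scalar. -/
theorem sum_inv_mul {θ : Z → ℂ}
    (hinv : ∀ (x : H) (z : Z), θ ⟨x * z * x⁻¹, hZ.conj_mem z z.2 x⟩ = θ z)
    {Λ : H → ℂ} (hΛ : IsIrrCharacter H Λ) (y : H) :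
    ∑ z : Z, θ z * Λ (y * z) = (∑ z : Z, θ z * Λ z) / Λ 1 * Λ y := by
  classical
  have hcard : (Nat.card H : ℂ) ≠ 0 := Nat.cast_ne_zero.mpr Nat.card_pos.ne'
  have h1 : ∀ x : H, ∑ z : Z, θ z * Λ (y * (x * z * x⁻¹)) = ∑ z : Z, θ z * Λ (y * z) := by
    intro x
    let σ : Z ≃ Z :=
      { toFun := fun z => ⟨x * z * x⁻¹, hZ.conj_mem z z.2 x⟩
        invFun := fun z => ⟨x⁻¹ * z * x, by
          have := hZ.conj_mem z z.2 x⁻¹
          simpa using this⟩
        left_inv := fun z => by ext; simp [mul_assoc]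
        right_inv := fun z => by ext; simp [mul_assoc] }
    rw [← Equiv.sum_comp σ (fun z : Z => θ z * Λ (y * z))]
    refine Finset.sum_congr rfl fun z _ => ?_
    show _ = θ ⟨x * z * x⁻¹, _⟩ * Λ (y * (x * z * x⁻¹))
    rw [hinv]
  have h2 : (Nat.card H : ℂ) * ∑ z : Z, θ z * Λ (y * z)
      = ∑ z : Z, θ z * ((Nat.card H : ℂ) * Λ y * Λ z / Λ 1) := by
    simp_rw [← sum_irr_mul_conj' hΛ]
    have : (Nat.card H : ℂ) * ∑ z : Z, θ z * Λ (y * z)
        = ∑ x : H, ∑ z : Z, θ z * Λ (y * (x * z * x⁻¹)) := by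
      simp_rw [h1]
      simp [Finset.card_univ, Nat.card_eq_fintype_card]
    rw [this, Finset.sum_comm]
    refine Finset.sum_congr rfl fun z _ => ?_
    rw [Finset.mul_sum]
  have h3 : ∑ z : Z, θ z * ((Nat.card H : ℂ) * Λ y * Λ z / Λ 1)
      = (Nat.card H : ℂ) * ((∑ z : Z, θ z * Λ z) / Λ 1 * Λ y) := by
    rw [Finset.sum_div, Finset.sum_mul, Finset.mul_sum]
    refine Finset.sum_congr rfl fun z _ => ?_
    ring
  rw [h3] at h2
  exact mul_left_cancel₀ hcard h2

end Sum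

section Core

variable {H : Type u} [Group H] [Fintype H] (Z : Subgroup H) [hZ : Z.Normal] [Fintype Z]

/-- A fully ramified character vanishes off `Z`. -/
theorem vanish_off (θ : Z → ℂ) (hθ : IsIrrCharacter Z θ) (e : ℕ) (he : e ^ 2 = Z.index)
    {χ : H → ℂ} (hχ : IsIrrCharacter H χ) (hres : ∀ z : Z, χ z = (e : ℂ) * θ z) {h : H}
    (hh : h ∉ Z) : χ h = 0 := by
  classical
  have h1 := classInner_self_of_isIrr hχ
  have h2 := classInner_self_of_isIrr hθ
  unfold classInner at h1 h2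
  have hcardH : (Nat.card H : ℂ) ≠ 0 := Nat.cast_ne_zero.mpr Nat.card_pos.ne'
  have hcardZ : (Nat.card Z : ℂ) ≠ 0 := Nat.cast_ne_zero.mpr Nat.card_pos.ne'
  have h1' : ∑ g : H, χ g * conj (χ g) = (Nat.card H : ℂ) := by
    field_simp at h1; linear_combination h1
  have h2' : ∑ g : Z, θ g * conj (θ g) = (Nat.card Z : ℂ) := by
    field_simp at h2; linear_combination h2
  have hidx : (Nat.card H : ℂ) = (e : ℂ) ^ 2 * Nat.card Z := by
    have := Subgroup.card_mul_index Z
    rw [← he] at this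
    rw [← this]; push_cast; ring
  -- the real sums
  have hsplit : ∑ g : H, χ g * conj (χ g)
      = ∑ z : Z, χ z * conj (χ z) + ∑ g ∈ Finset.univ.filter (fun g : H => g ∉ Z), χ g * conj (χ g) := by
    rw [← Finset.sum_filter_add_sum_filter_not Finset.univ (fun g : H => g ∈ Z)]
    congr 1
    exact (Finset.sum_subtype (p := fun g : H => g ∈ Z) (Finset.univ.filter (fun g : H => g ∈ Z)) (by simp) (fun g => χ g * conj (χ g)))
  have hZsum : ∑ z : Z, χ z * conj (χ z) = (Nat.card H : ℂ) := by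
    simp_rw [hres, map_mul, Complex.conj_natCast]
    have : ∀ z : Z, (e : ℂ) * θ z * ((e : ℂ) * conj (θ z)) = (e : ℂ) ^ 2 * (θ z * conj (θ z)) :=
      fun z => by ring
    simp_rw [this]
    rw [← Finset.mul_sum, h2', hidx]
  rw [h1', hZsum] at hsplit
  have h0 : ∑ g ∈ Finset.univ.filter (fun g : H => g ∉ Z), χ g * conj (χ g) = 0 := by
    linear_combination -hsplit
  have hnn : ∀ g : H, χ g * conj (χ g) = ((Complex.normSq (χ g) : ℝ) : ℂ) := fun g =>
    Complex.mul_conj _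
  simp_rw [hnn] at h0
  have h0' : ∑ g ∈ Finset.univ.filter (fun g : H => g ∉ Z), Complex.normSq (χ g) = 0 := by
    exact_mod_cast h0
  have := (Finset.sum_eq_zero_iff_of_nonneg (fun g _ => Complex.normSq_nonneg _)).mp h0' h
    (by simp [hh])
  exact Complex.normSq_eq_zero.mp this

/-- The core of the theorem. -/
theorem core (θ : Z → ℂ) (hθ : IsIrrCharacter Z θ) (e : ℕ) (he : e ^ 2 = Z.index)
    {χ : H → ℂ} (hχ : IsIrrCharacter H χ) (hres : ∀ z : Z, χ z = (e : ℂ) * θ z)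
    (K : Subgroup H) (hZK : Z ≤ K) [Fintype K] (hcyc : IsCyclic (K ⧸ Z.subgroupOf K))
    (g : H) (hgK : g ∈ K) (hgZ : g ∉ Z)
    (hself : ∀ x : H, x * g * x⁻¹ * g⁻¹ ∈ Z ↔ x ∈ K) : False := by
  classical
  have he0 : (e : ℂ) ≠ 0 := by
    intro h0
    have h1 : e = 0 := by exact_mod_cast h0
    subst h1
    have h2 : Z.index = 0 := by rw [← he]; norm_num
    exact Subgroup.index_ne_zero_of_finite h2
  have hχcf := isClassFunction_of_isIrrCharacter hχ
  -- invariance of `θ`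
  have hinv : ∀ (x : H) (z : Z), θ ⟨x * z * x⁻¹, hZ.conj_mem z z.2 x⟩ = θ z := by
    intro x z
    have h1 := hres ⟨x * z * x⁻¹, hZ.conj_mem z z.2 x⟩
    have h2 := hres z
    have h3 : χ (x * z * x⁻¹) = χ z := hχcf z x
    simp only [] at h1
    rw [h3, h2] at h1
    exact (mul_left_cancel₀ he0 h1).symm
  have hconjinv : ∀ (x : H) (z : Z), conj (θ ⟨x * z * x⁻¹, hZ.conj_mem z z.2 x⟩) = conj (θ z) :=
    fun x z => by rw [hinv]
  have hθinv : ∀ z : Z, θ z⁻¹ = conj (θ z) := fun z =>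
    char_inv_eq_conj (isCharacter_of_isIrrCharacter hθ) z
  have hχ0 : ∀ h : H, h ∉ Z → χ h = 0 := fun h hh => vanish_off Z θ hθ e he hχ hres hh
  -- every other irreducible character is orthogonal to `θ` on `Z`
  have hΛ0 : ∀ Λ : H → ℂ, IsIrrCharacter H Λ → Λ ≠ χ → ∑ z : Z, conj (θ z) * Λ z = 0 := by
    intro Λ hΛ hne
    have h1 := classInner_eq_zero_of_isIrr_of_ne hΛ hχ hne
    unfold classInner at h1
    have hcardH : (Nat.card H : ℂ) ≠ 0 := Nat.cast_ne_zero.mpr Nat.card_pos.ne'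
    have h1' : ∑ g : H, Λ g * conj (χ g) = 0 := by
      rcases mul_eq_zero.mp h1 with h | h
      · exact absurd h (inv_ne_zero hcardH)
      · exact h
    rw [← Finset.sum_filter_add_sum_filter_not Finset.univ (fun g : H => g ∈ Z)] at h1'
    have h2 : ∑ g ∈ Finset.univ.filter (fun g : H => ¬ g ∈ Z), Λ g * conj (χ g) = 0 :=
      Finset.sum_eq_zero fun g hg => by
        rw [hχ0 g (Finset.mem_filter.mp hg).2]; simp
    rw [h2, add_zero,
      Finset.sum_subtype (p := fun g : H => g ∈ Z) (Finset.univ.filter (fun g : H => g ∈ Z)) (by simp) _] at h1'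
    have h3 : ∑ z : Z, Λ z * conj (χ z) = (e : ℂ) * ∑ z : Z, conj (θ z) * Λ z := by
      rw [Finset.mul_sum]
      refine Finset.sum_congr rfl fun z _ => ?_
      rw [hres, map_mul, Complex.conj_natCast]
      ring
    have h4 : (e : ℂ) * ∑ z : Z, conj (θ z) * Λ z = 0 := by
      rw [← h3]; exact h1'
    exact (mul_eq_zero.mp h4).resolve_left he0
  -- the vanishing for `Λ` on cosets
  have hA : ∀ Λ : H → ℂ, IsIrrCharacter H Λ → Λ ≠ χ → ∀ y : H, ∑ w : Z, conj (θ w) * Λ (y * w) = 0 := by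
    intro Λ hΛ hne y
    have h1 := sum_inv_mul Z (θ := fun z => conj (θ z)) hconjinv hΛ y
    rw [h1, hΛ0 Λ hΛ hne]
    simp
  -- the extension
  let Z' : Subgroup K := Z.subgroupOf K
  have hZ' : Z'.Normal := Subgroup.normal_subgroupOf
  letI : Fintype Z' := Fintype.ofFinite _
  let e₁ : Z' ≃* Z := Subgroup.subgroupOfEquivOfLe hZK
  let θ₁ : Z' → ℂ := θ ∘ e₁
  have hθ₁ : IsIrrCharacter Z' θ₁ := isIrrCharacter_comp_mulEquiv e₁ hθ
  have hinv₁ : ∀ c : K, conjOn hZ' c θ₁ = θ₁ := by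
    intro c
    funext n
    exact hinv (c : H) (e₁ n)
  obtain ⟨lam, hlam, hlamres⟩ := Cfsg.Agent.Lib.Char.Extend.exists_irr_ext_of_cyclic hZ' hθ₁ hinv₁ hcyc
  let ι : Z → K := fun u => ⟨u, hZK u.2⟩
  have hlamι : ∀ u : Z, lam (ι u) = θ u := fun u => by
    have := hlamres (e₁.symm u)
    have h2 : ((e₁.symm u : Z') : K) = ι u := rfl
    rw [h2] at this
    rw [this]
    simp [θ₁]
  have hlamcf := isClassFunction_of_isIrrCharacter hlam
  have hcardZ : (Nat.card Z : ℂ) ≠ 0 := Nat.cast_ne_zero.mpr Nat.card_pos.ne'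
  have hθsum : ∑ u : Z, conj (θ u) * θ u = (Nat.card Z : ℂ) := by
    have h2 := classInner_self_of_isIrr hθ
    unfold classInner at h2
    have h2' : ∑ g : Z, θ g * conj (θ g) = (Nat.card Z : ℂ) := by
      field_simp at h2; linear_combination h2
    rw [← h2']
    exact Finset.sum_congr rfl fun _ _ => mul_comm _ _
  have hlam1 : lam 1 ≠ 0 := irr_one_ne_zero hlam
  -- averaging formula for the extension
  have hB : ∀ y : K, ∑ u : Z, conj (θ u) * lam (y * ι u) = (Nat.card Z : ℂ) / lam 1 * lam y := by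
    intro y
    have hinv' : ∀ (x : K) (z : Z'), (fun z : Z' => conj (θ₁ z)) ⟨x * z * x⁻¹, hZ'.conj_mem z z.2 x⟩ = (fun z : Z' => conj (θ₁ z)) z := by
      intro x z
      exact hconjinv (x : H) (e₁ z)
    have h1 := sum_inv_mul Z' (θ := fun z : Z' => conj (θ₁ z)) hinv' hlam y
    have h2 : ∑ z : Z', conj (θ₁ z) * lam (y * z) = ∑ u : Z, conj (θ u) * lam (y * ι u) :=
      Equiv.sum_comp e₁.toEquiv (fun u : Z => conj (θ u) * lam (y * ι u))
    have h3 : ∑ z : Z', conj (θ₁ z) * lam z = (Nat.card Z : ℂ) := by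
      rw [← hθsum]
      have := Equiv.sum_comp e₁.toEquiv (fun u : Z => conj (θ u) * θ u)
      rw [← this]
      refine Finset.sum_congr rfl fun z _ => ?_
      rw [hlamres]
      rfl
    rw [h2] at h1
    rw [h1, h3]
  let g₀ : K := ⟨g, hgK⟩
  have hg₀ : ∀ u : Z, ((g₀ * ι u : K) : H) = g * u := fun u => rfl
  -- orthogonality of the coset function
  have hort : ∀ Λ : H → ℂ, IsIrrCharacter H Λ →
      ∑ u : Z, lam (g₀ * ι u) * conj (Λ (g * u)) = 0 := by
    intro Λ hΛ
    by_cases hne : Λ = χ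
    · subst hne
      refine Finset.sum_eq_zero fun u _ => ?_
      rw [hχ0 (g * u) (fun h => hgZ ?_)]
      · simp
      · have := Z.mul_mem h (Z.inv_mem u.2)
        simpa using this
    have hc : (Nat.card Z : ℂ) / lam 1 ≠ 0 := div_ne_zero hcardZ hlam1
    have hBu : ∀ u : Z, lam (g₀ * ι u)
        = (lam 1 / Nat.card Z) * ∑ w : Z, conj (θ w) * lam (g₀ * ι (u * w)) := by
      intro u
      have h1 := hB (g₀ * ι u)
      have h2 : ∀ w : Z, g₀ * ι u * ι w = g₀ * ι (u * w) := fun w => by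
        apply Subtype.ext
        simp [ι, mul_assoc]
      simp_rw [h2] at h1
      rw [h1]
      field_simp
    have hsum : ∑ u : Z, lam (g₀ * ι u) * conj (Λ (g * u))
        = (lam 1 / Nat.card Z) * ∑ v : Z, lam (g₀ * ι v) *
            conj (∑ w : Z, conj (θ w) * Λ ((g * v) * w)) := by
      have h1 : ∀ w : Z, ∑ u : Z, conj (θ w) * lam (g₀ * ι (u * w)) * conj (Λ (g * u))
          = ∑ v : Z, conj (θ w) * lam (g₀ * ι v) * conj (Λ (g * v * (w⁻¹ : Z))) := by
        intro w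
        rw [← Equiv.sum_comp (Equiv.mulRight w) (fun v : Z => conj (θ w) * lam (g₀ * ι v) * conj (Λ (g * v * (w⁻¹ : Z))))]
        refine Finset.sum_congr rfl fun u _ => ?_
        simp [mul_assoc]
      have h2 : ∀ v : Z, ∑ w : Z, conj (θ w) * lam (g₀ * ι v) * conj (Λ (g * v * (w⁻¹ : Z)))
          = lam (g₀ * ι v) * conj (∑ w : Z, conj (θ w) * Λ ((g * v) * w)) := by
        intro v
        rw [map_sum, Finset.mul_sum,
          ← Equiv.sum_comp (Equiv.inv Z) (fun w : Z => lam (g₀ * ι v) * conj (conj (θ w) * Λ ((g * v) * w)))]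
        refine Finset.sum_congr rfl fun w _ => ?_
        simp only [Equiv.inv_apply, map_mul, Complex.conj_conj, hθinv]
        ring
      calc ∑ u : Z, lam (g₀ * ι u) * conj (Λ (g * u))
          = (lam 1 / Nat.card Z) * ∑ u : Z, ∑ w : Z, conj (θ w) * lam (g₀ * ι (u * w)) * conj (Λ (g * u)) := by
            rw [Finset.mul_sum]
            refine Finset.sum_congr rfl fun u _ => ?_
            rw [hBu u, mul_assoc, Finset.sum_mul]
        _ = (lam 1 / Nat.card Z) * ∑ w : Z, ∑ v : Z, conj (θ w) * lam (g₀ * ι v) * conj (Λ (g * v * (w⁻¹ : Z))) := by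
            rw [Finset.sum_comm]
            simp_rw [h1]
        _ = _ := by
            rw [Finset.sum_comm]
            simp_rw [h2]
    rw [hsum]
    have h0 : ∀ v : Z, ∑ w : Z, conj (θ w) * Λ ((g * v) * w) = 0 := fun v => hA Λ hΛ hne _
    simp [h0]
  -- the class function
  let f : H → ℂ := fun h => if hh : g⁻¹ * h ∈ Z then lam ⟨h, by
      have := K.mul_mem hgK (hZK hh)
      simpa using this⟩ else 0
  have hf : ∀ u : Z, f (g * u) = lam (g₀ * ι u) := by
    intro u
    have h1 : g⁻¹ * (g * u) ∈ Z := by simp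
    simp only [f, dif_pos h1]
    rfl
  have hf0 : ∀ h : H, g⁻¹ * h ∉ Z → f h = 0 := fun h hh => by simp [f, dif_neg hh]
  have hfsum : ∀ φ : H → ℂ, ∑ h : H, f h * φ h = ∑ u : Z, lam (g₀ * ι u) * φ (g * u) := by
    intro φ
    symm
    refine Finset.sum_of_injOn (fun u : Z => g * (u : H)) ?_ (fun _ _ => Finset.mem_coe.mpr (Finset.mem_univ _)) ?_ ?_
    · intro a _ b _ hab
      exact Subtype.ext (mul_left_cancel hab)
    · intro h _ hh
      rw [hf0 h, zero_mul]
      intro hmem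
      exact hh ⟨⟨_, hmem⟩, Finset.mem_coe.mpr (Finset.mem_univ _), by simp⟩
    · intro u _
      rw [hf]
  let F : H → ℂ := fun h => ∑ x : H, f (x * h * x⁻¹)
  have hFcf : IsClassFunction H F := by
    intro h y
    simp only [F]
    rw [← Equiv.sum_comp (Equiv.mulRight y) (fun x : H => f (x * h * x⁻¹))]
    refine Finset.sum_congr rfl fun x _ => ?_
    congr 1
    simp [mul_assoc]
  have hF0 : F = 0 := by
    refine eq_zero_of_classInner_irr_eq_zero hFcf fun Λ hΛ => ?_
    unfold classInner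
    have hΛcf := isClassFunction_of_isIrrCharacter hΛ
    have h1 : ∑ h : H, F h * conj (Λ h) = ∑ x : H, ∑ h : H, f h * conj (Λ h) := by
      simp only [F, Finset.sum_mul]
      rw [Finset.sum_comm]
      refine Finset.sum_congr rfl fun x _ => ?_
      have hσ := Equiv.sum_comp (MulAut.conj x).toEquiv (fun h : H => f h * conj (Λ h))
      rw [← hσ]
      refine Finset.sum_congr rfl fun h _ => ?_
      simp only [MulEquiv.toEquiv_eq_coe, MulEquiv.coe_toEquiv, MulAut.conj_apply]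
      rw [hΛcf h x]
    rw [h1, hfsum, hort Λ hΛ]
    simp
  -- evaluate
  have hval : ∀ u : Z, F (g * u) = (Nat.card K : ℂ) * lam (g₀ * ι u) := by
    intro u
    simp only [F]
    have hsplit := Finset.sum_filter_add_sum_filter_not Finset.univ (fun x : H => x ∈ K)
      (fun x : H => f (x * (g * u) * x⁻¹))
    rw [← hsplit]
    have h2 : ∑ x ∈ Finset.univ.filter (fun x : H => ¬ x ∈ K), f (x * (g * u) * x⁻¹) = 0 := by
      refine Finset.sum_eq_zero fun x hx => ?_
      have hxK := (Finset.mem_filter.mp hx).2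
      refine hf0 _ fun hmem => hxK ?_
      rw [← hself]
      have hu' : x * (u : H) * x⁻¹ ∈ Z := hZ.conj_mem u u.2 x
      have h3 : g⁻¹ * (x * g * x⁻¹) ∈ Z := by
        have h4 := Z.mul_mem hmem (Z.inv_mem hu')
        have h5 : g⁻¹ * (x * (g * u) * x⁻¹) * (x * (u : H) * x⁻¹)⁻¹ = g⁻¹ * (x * g * x⁻¹) := by group
        rwa [h5] at h4
      have h6 := hZ.conj_mem _ h3 g
      have h7 : g * (g⁻¹ * (x * g * x⁻¹)) * g⁻¹ = x * g * x⁻¹ * g⁻¹ := by group
      rwa [h7] at h6
    have h1 : ∑ x ∈ Finset.univ.filter (fun x : H => x ∈ K), f (x * (g * u) * x⁻¹)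
        = ∑ x : K, lam (g₀ * ι u) := by
      rw [Finset.sum_subtype (p := fun x : H => x ∈ K) (Finset.univ.filter (fun x : H => x ∈ K)) (by simp)]
      refine Finset.sum_congr rfl fun x _ => ?_
      have hcomm : (x : H) * g * (x : H)⁻¹ * g⁻¹ ∈ Z := (hself x).mpr x.2
      have hmem : g⁻¹ * ((x : H) * (g * u) * (x : H)⁻¹) ∈ Z := by
        have hu' : (x : H) * (u : H) * (x : H)⁻¹ ∈ Z := hZ.conj_mem u u.2 x
        have h3 := hZ.conj_mem _ hcomm g⁻¹
        have h4 := Z.mul_mem h3 hu'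
        have h5 : g⁻¹ * ((x : H) * g * (x : H)⁻¹ * g⁻¹) * g⁻¹⁻¹ * ((x : H) * (u : H) * (x : H)⁻¹)
            = g⁻¹ * ((x : H) * (g * u) * (x : H)⁻¹) := by group
        rwa [h5] at h4
      simp only [f, dif_pos hmem]
      have := hlamcf (g₀ * ι u) x
      rw [← this]
      rfl
    rw [h1, h2, add_zero]
    simp [Finset.card_univ, Nat.card_eq_fintype_card]
  have hzero : ∀ u : Z, lam (g₀ * ι u) = 0 := by
    intro u
    have h1 := hval u
    have h2 : F (g * u) = 0 := by rw [hF0]; rfl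
    rw [h2] at h1
    have hK : (Nat.card K : ℂ) ≠ 0 := Nat.cast_ne_zero.mpr Nat.card_pos.ne'
    exact (mul_eq_zero.mp h1.symm).resolve_left hK
  -- contradiction with Gallagher's average
  have hres' : IsIrrCharacter Z' (fun n : Z' => lam n) := by
    have : (fun n : Z' => lam n) = θ₁ := funext hlamres
    rw [this]; exact hθ₁
  have heta := Cfsg.Agent.Lib.CharDeep.GallagherExt.eta_self_eq_one Z' (isCharacter_of_isIrrCharacter hlam) hres' g₀
  unfold Cfsg.Agent.Lib.CharDeep.GallagherExt.eta at heta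
  have h0 : ∀ n : Z', lam ((n : K) * g₀) = 0 := by
    intro n
    have h1 := hlamcf (g₀ * (n : K)) g₀⁻¹
    have h2 : g₀⁻¹ * (g₀ * (n : K)) * g₀⁻¹⁻¹ = (n : K) * g₀ := by group
    rw [h2] at h1
    rw [h1]
    exact hzero (e₁ n)
  simp [h0] at heta

end Core

/-- **Fully ramified sections**: `H/Z` has no self-centralizing cyclic subgroup. -/
theorem s4565 {H : Type u} [Group H] [Finite H] (Z : Subgroup H) [Z.Normal] (χ : IrrCharacter H)
    (hfr : ∃ (θ : IrrCharacter Z) (e : ℕ), e ^ 2 = Z.index ∧ ∀ z : Z, (χ : H → ℂ) z = (e : ℂ) * (θ : Z → ℂ) z)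
    (hZ : Z ≠ ⊤) (C : Subgroup (H ⧸ Z)) (hC : IsCyclic C) :
    Subgroup.centralizer (C : Set (H ⧸ Z)) ≠ C := by
  classical
  intro hself
  letI : Fintype H := Fintype.ofFinite _
  letI : Fintype Z := Fintype.ofFinite _
  obtain ⟨θ, e, he, hres⟩ := hfr
  obtain ⟨c, hc⟩ := hC.exists_generator
  obtain ⟨g, hg⟩ := QuotientGroup.mk_surjective (c : H ⧸ Z)
  have hcmem : ((g : H) : H ⧸ Z) ∈ C := by rw [hg]; exact c.2
  have hgen : ∀ y ∈ C, ∃ k : ℤ, y = ((g : H) : H ⧸ Z) ^ k := by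
    intro y hy
    obtain ⟨k, hk⟩ := Subgroup.mem_zpowers_iff.mp (hc ⟨y, hy⟩)
    refine ⟨k, ?_⟩
    have := congrArg Subtype.val hk
    simp only [SubgroupClass.coe_zpow] at this
    rw [← this, hg]
  have hgZ : g ∉ Z := by
    intro hgZ
    have h1 : ((g : H) : H ⧸ Z) = 1 := (QuotientGroup.eq_one_iff g).mpr hgZ
    have h2 : C = ⊥ := by
      rw [eq_bot_iff]
      intro y hy
      obtain ⟨k, rfl⟩ := hgen y hy
      rw [h1, one_zpow]
      exact Subgroup.one_mem _
    rw [h2] at hself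
    have h3 : Subgroup.centralizer ((⊥ : Subgroup (H ⧸ Z)) : Set (H ⧸ Z)) = ⊤ := by
      ext y
      simp [Subgroup.mem_centralizer_iff]
    rw [h3] at hself
    apply hZ
    rw [eq_top_iff]
    intro x _
    have h4 : ((x : H) : H ⧸ Z) ∈ (⊥ : Subgroup (H ⧸ Z)) := by rw [← hself]; trivial
    exact (QuotientGroup.eq_one_iff x).mp (Subgroup.mem_bot.mp h4)
  let K : Subgroup H := C.comap (QuotientGroup.mk' Z)
  have hZK : Z ≤ K := by
    intro z hz
    show ((z : H) : H ⧸ Z) ∈ C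
    rw [(QuotientGroup.eq_one_iff z).mpr hz]
    exact C.one_mem
  letI : Fintype K := Fintype.ofFinite _
  have hcyc : IsCyclic (K ⧸ Z.subgroupOf K) := by
    let φ : K →* C := ((QuotientGroup.mk' Z).comp K.subtype).codRestrict C (fun x => x.2)
    have hφ : Z.subgroupOf K ≤ φ.ker := by
      intro x hx
      rw [MonoidHom.mem_ker]
      apply Subtype.ext
      exact (QuotientGroup.eq_one_iff (x : H)).mpr hx
    let ψ := QuotientGroup.lift (Z.subgroupOf K) φ hφ
    have hinj : Function.Injective ψ := by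
      rw [injective_iff_map_eq_one]
      intro q
      obtain ⟨x, rfl⟩ := QuotientGroup.mk_surjective q
      intro hx
      have h1 : φ x = 1 := hx
      have h2 : ((x : H) : H ⧸ Z) = 1 := congrArg Subtype.val h1
      exact (QuotientGroup.eq_one_iff x).mpr ((QuotientGroup.eq_one_iff (x : H)).mp h2)
    exact isCyclic_of_injective ψ hinj
  have hKmem : ∀ x : H, x ∈ K ↔ ((x : H) : H ⧸ Z) ∈ C := fun x => Iff.rfl
  refine core Z θ θ.2 e he χ.2 hres K hZK hcyc g hcmem hgZ fun x => ?_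
  rw [hKmem, ← hself, Subgroup.mem_centralizer_iff]
  constructor
  · intro hx y hy
    obtain ⟨k, rfl⟩ := hgen y hy
    have h1 : (((x * g * x⁻¹ * g⁻¹ : H)) : H ⧸ Z) = 1 := (QuotientGroup.eq_one_iff _).mpr hx
    have h2 : ((g : H) : H ⧸ Z) * ((x : H) : H ⧸ Z) = ((x : H) : H ⧸ Z) * ((g : H) : H ⧸ Z) := by
      push_cast at h1
      have h3 : ((x : H) : H ⧸ Z) * ((g : H) : H ⧸ Z) * ((x : H) : H ⧸ Z)⁻¹ * ((g : H) : H ⧸ Z)⁻¹ = 1 := h1
      rw [mul_inv_eq_one, mul_inv_eq_iff_eq_mul] at h3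
      exact h3.symm
    exact ((Commute.zpow_left h2 k).eq)
  · intro hx
    have h1 := hx _ hcmem
    apply (QuotientGroup.eq_one_iff _).mp
    push_cast
    show ((x : H) : H ⧸ Z) * ((g : H) : H ⧸ Z) * ((x : H) : H ⧸ Z)⁻¹ * ((g : H) : H ⧸ Z)⁻¹ = 1
    rw [mul_inv_eq_one, mul_inv_eq_iff_eq_mul]
    exact h1.symm

end Cfsg.Agent.Lib.BlockH.FullyRam
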