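import Cfsg.Agent.Lib.BlockH.FullyRam
import Cfsg.Agent.Lib.Char.CliffordCorr
import Cfsg.Agent.Lib.Char.Induced
import Cfsg.Agent.Lib.BlockP.PSolvHeight

/-!
# Fully ramified characters over a normal subgroup `Z`: action on characters of intermediate groups
-/

set_option autoImplicit false
set_option linter.unusedSectionVars false
set_option linter.style.haveILetI false
set_option linter.unusedVariables false

namespace Cfsg.Agent.Lib.BlockH.FullyRam2

open Cfsg Module
open Cfsg.Agent.Lib.Char.Basic Cfsg.Agent.Lib.Char.Ortho Cfsg.Agent.Lib.Char.Complete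
open Cfsg.Agent.Lib.Char.Conj Cfsg.Agent.Lib.Char.Clifford Cfsg.Agent.Lib.Char.ClassSum
open Cfsg.Agent.Lib.Char.CliffordCorr Cfsg.Agent.Lib.Char.Induced
open Cfsg.Agent.Lib.BlockH.FullyRam
open scoped ComplexConjugate

universe u

section SLevel

variable {S : Type u} [Group S] [Fintype S] {Z A : Subgroup S} (hZ : Z.Normal) (hA : A.Normal)
  (hZA : Z ≤ A) [Fintype Z] [Fintype A]
  {θ : Z → ℂ} (hθ : IsIrrCharacter Z θ) {ψ : S → ℂ} (hψ : IsIrrCharacter S ψ) {e' : ℕ}
  (he' : e' ^ 2 = Z.index) (hres : ∀ z : Z, ψ z = (e' : ℂ) * θ z)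

include hZ hZA hθ hψ he' hres

/-- `ψ` restricted to `A` in terms of `θ`. -/
theorem inner_restrict (φ : A → ℂ) :
    classInner (fun a : A => ψ a) φ =
      (e' : ℂ) * Nat.card Z / Nat.card A * classInner θ (res hZA φ) := by
  classical
  haveI := hZ
  have h0 := fun (h : S) (hh : h ∉ Z) => vanish_off Z θ hθ e' he' hψ hres hh
  unfold classInner
  have hA0 : (Nat.card A : ℂ) ≠ 0 := Nat.cast_ne_zero.mpr Nat.card_pos.ne'
  have hZ0 : (Nat.card Z : ℂ) ≠ 0 := Nat.cast_ne_zero.mpr Nat.card_pos.ne'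
  have h1 : ∑ a : A, ψ a * conj (φ a) = ∑ z : Z, (e' : ℂ) * θ z * conj (φ ⟨z, hZA z.2⟩) := by
    symm
    refine Finset.sum_of_injOn (fun z : Z => (⟨z, hZA z.2⟩ : A)) ?_
      (fun _ _ => Finset.mem_coe.mpr (Finset.mem_univ _)) ?_ ?_
    · intro a _ b _ hab
      have := congrArg Subtype.val hab
      exact Subtype.ext this
    · intro a _ ha
      rw [h0 a, zero_mul]
      intro hmem
      exact ha ⟨⟨a, hmem⟩, Finset.mem_coe.mpr (Finset.mem_univ _), rfl⟩
    · intro z _
      rw [hres]
  rw [h1]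
  simp only [res]
  rw [show ∑ z : Z, (e' : ℂ) * θ z * conj (φ ⟨z, hZA z.2⟩)
      = (e' : ℂ) * ∑ z : Z, θ z * conj (φ ⟨z, hZA z.2⟩) from by
        rw [Finset.mul_sum]; exact Finset.sum_congr rfl fun _ _ => by ring]
  field_simp

include hA

/-- Conjugacy of characters over `θ`. -/
theorem exists_conj {φ φ' : A → ℂ} (hφ : IsIrrCharacter A φ) (hφ' : IsIrrCharacter A φ')
    (hover : classInner (res hZA φ) θ ≠ 0) (hover' : classInner (res hZA φ') θ ≠ 0) :
    ∃ x : S, conjOn hA x φ = φ' := by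
  have he0 : (e' : ℂ) ≠ 0 := by
    intro h0
    have h1 : e' = 0 := by exact_mod_cast h0
    subst h1
    exact Subgroup.index_ne_zero_of_finite (by rw [← he']; norm_num : Z.index = 0)
  have hA0 : (Nat.card A : ℂ) ≠ 0 := Nat.cast_ne_zero.mpr Nat.card_pos.ne'
  have hZ0 : (Nat.card Z : ℂ) ≠ 0 := Nat.cast_ne_zero.mpr Nat.card_pos.ne'
  have hne : ∀ {φ : A → ℂ}, classInner (res hZA φ) θ ≠ 0 → classInner (fun a : A => ψ a) φ ≠ 0 := by
    intro φ hov
    rw [inner_restrict hZ hZA hθ hψ he' hres]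
    exact mul_ne_zero (div_ne_zero (mul_ne_zero he0 hZ0) hA0) (classInner_ne_zero_comm hov)
  by_contra hcon
  push_neg at hcon
  exact (hne hover') (classInner_restrict_eq_zero_of_not_conj hA hψ hφ hφ' (hne hover) hcon)

/-- The invariance of `θ`. -/
theorem invariant_theta (x : S) : conjOn hZ x θ = θ := by
  have he0 : (e' : ℂ) ≠ 0 := by
    intro h0
    have h1 : e' = 0 := by exact_mod_cast h0
    subst h1
    exact Subgroup.index_ne_zero_of_finite (by rw [← he']; norm_num : Z.index = 0)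
  funext z
  simp only [conjOn_apply]
  have h1 := hres ⟨x * z * x⁻¹, hZ.conj_mem z z.2 x⟩
  have h2 := hres z
  have h3 : ψ (x * z * x⁻¹) = ψ z := isClassFunction_of_isIrrCharacter hψ z x
  simp only [] at h1
  rw [h3, h2] at h1
  exact (mul_left_cancel₀ he0 h1).symm

/-- The basic numerical relation of Clifford theory for a fully ramified character. -/
theorem sq_mul_index {φ : A → ℂ} (hφ : IsIrrCharacter A φ) (hover : classInner (res hZA φ) θ ≠ 0) :
    ∃ g : ℕ, classInner (fun a : A => ψ a) φ = g ∧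
      g ^ 2 * (inertia hA φ).index = A.index := by
  classical
  have he0 : (e' : ℂ) ≠ 0 := by
    intro h0
    have h1 : e' = 0 := by exact_mod_cast h0
    subst h1
    exact Subgroup.index_ne_zero_of_finite (by rw [← he']; norm_num : Z.index = 0)
  have hA0 : (Nat.card A : ℂ) ≠ 0 := Nat.cast_ne_zero.mpr Nat.card_pos.ne'
  have hZ0 : (Nat.card Z : ℂ) ≠ 0 := Nat.cast_ne_zero.mpr Nat.card_pos.ne'
  obtain ⟨g, hg⟩ := exists_nat_classInner (isCharacter_restrict A (isCharacter_of_isIrrCharacter hψ))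
    (isCharacter_of_isIrrCharacter hφ)
  refine ⟨g, hg, ?_⟩
  have hinv := invariant_theta hZ hA hZA hθ hψ he' hres
  have hφres := restrict_eq_smul_of_invariant hZ hZA hθ (fun t _ => hinv t) hφ hover
  obtain ⟨f₀, hf₀⟩ := exists_nat_classInner
    (isCharacter_comp (Subgroup.inclusion hZA) (isCharacter_of_isIrrCharacter hφ))
    (isCharacter_of_isIrrCharacter hθ)
  have hf₀' : classInner (res hZA φ) θ = f₀ := hf₀
  have hf₀ne : (f₀ : ℂ) ≠ 0 := by rw [← hf₀']; exact hover
  have hcomm : classInner θ (res hZA φ) = f₀ := by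
    have : classInner θ (res hZA φ) = conj (classInner (res hZA φ) θ) := by
      unfold classInner
      simp only [map_mul, map_sum, map_inv₀, Complex.conj_conj, Complex.conj_natCast]
      congr 1
      exact Finset.sum_congr rfl fun _ _ => mul_comm _ _
    rw [this, hf₀', Complex.conj_natCast]
  -- the equalities
  have hE4 := inner_restrict hZ hZA hθ hψ he' hres φ
  rw [hg, hcomm] at hE4
  have hcon : classInner (fun a : A => ψ a) φ ≠ 0 := by
    rw [inner_restrict hZ hZA hθ hψ he' hres, hcomm]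
    exact mul_ne_zero (div_ne_zero (mul_ne_zero he0 hZ0) hA0) hf₀ne
  have hE2 := deg_eq_of_constituent hA hψ hφ hcon
  rw [hg] at hE2
  have hE3 : φ 1 = (f₀ : ℂ) * θ 1 := by
    have := congrFun hφres 1
    simp only [res, Pi.smul_apply, smul_eq_mul] at this
    rw [hf₀'] at this
    exact this
  have hE1 : ψ 1 = (e' : ℂ) * θ 1 := hres 1
  have hθ1 : θ 1 ≠ 0 := irr_one_ne_zero hθ
  -- cancellation
  rw [hE1, hE3] at hE2
  have hE6 : (e' : ℂ) = g * ((inertia hA φ).index : ℂ) * f₀ := by
    apply mul_right_cancel₀ hθ1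
    rw [hE2]; ring
  have hcardZ : (Nat.card S : ℂ) = (e' : ℂ) ^ 2 * Nat.card Z := by
    have := Subgroup.card_mul_index Z
    rw [← he'] at this
    rw [← this]; push_cast; ring
  have hcardA : (Nat.card S : ℂ) = (A.index : ℂ) * Nat.card A := by
    have := Subgroup.card_mul_index A
    rw [← this]; push_cast; ring
  have h7 : (g : ℂ) * e' = (A.index : ℂ) * f₀ := by
    have h8 : (g : ℂ) * Nat.card A = (e' : ℂ) * Nat.card Z * f₀ := by
      rw [hE4]; field_simp
    apply mul_right_cancel₀ hA0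
    calc (g : ℂ) * e' * Nat.card A = e' * (g * Nat.card A) := by ring
      _ = e' * ((e' : ℂ) * Nat.card Z * f₀) := by rw [h8]
      _ = ((e' : ℂ) ^ 2 * Nat.card Z) * f₀ := by ring
      _ = (A.index : ℂ) * Nat.card A * f₀ := by rw [← hcardZ, hcardA]
      _ = _ := by ring
  have h9 : (g : ℂ) ^ 2 * ((inertia hA φ).index : ℂ) = (A.index : ℂ) := by
    apply mul_right_cancel₀ hf₀ne
    rw [← h7, hE6]; ring
  exact_mod_cast h9

omit hA in
/-- The inner product with `ψ` in terms of `θ`. -/
theorem inner_irr (ζ : S → ℂ) :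
    classInner ζ ψ = (e' : ℂ) * Nat.card Z / Nat.card S * classInner (fun z : Z => ζ z) θ := by
  classical
  haveI := hZ
  have h0 := fun (h : S) (hh : h ∉ Z) => vanish_off Z θ hθ e' he' hψ hres hh
  unfold classInner
  have hA0 : (Nat.card S : ℂ) ≠ 0 := Nat.cast_ne_zero.mpr Nat.card_pos.ne'
  have hZ0 : (Nat.card Z : ℂ) ≠ 0 := Nat.cast_ne_zero.mpr Nat.card_pos.ne'
  have h1 : ∑ a : S, ζ a * conj (ψ a) = ∑ z : Z, (e' : ℂ) * (ζ z * conj (θ z)) := by
    symm
    refine Finset.sum_of_injOn (fun z : Z => (z : S)) ?_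
      (fun _ _ => Finset.mem_coe.mpr (Finset.mem_univ _)) ?_ ?_
    · intro a _ b _ hab
      exact Subtype.ext hab
    · intro a _ ha
      rw [h0 a, map_zero, mul_zero]
      intro hmem
      exact ha ⟨⟨a, hmem⟩, Finset.mem_coe.mpr (Finset.mem_univ _), rfl⟩
    · intro z _
      rw [hres, map_mul, Complex.conj_natCast]
      ring
  rw [h1, ← Finset.mul_sum]
  field_simp

omit hA in
/-- Uniqueness of the irreducible character over `θ`. -/
theorem eq_of_over {ζ : S → ℂ} (hζ : IsIrrCharacter S ζ)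
    (hover : classInner (fun z : Z => ζ z) θ ≠ 0) : ζ = ψ := by
  by_contra hne
  have he0 : (e' : ℂ) ≠ 0 := by
    intro h0
    have h1 : e' = 0 := by exact_mod_cast h0
    subst h1
    exact Subgroup.index_ne_zero_of_finite (by rw [← he']; norm_num : Z.index = 0)
  have hA0 : (Nat.card S : ℂ) ≠ 0 := Nat.cast_ne_zero.mpr Nat.card_pos.ne'
  have hZ0 : (Nat.card Z : ℂ) ≠ 0 := Nat.cast_ne_zero.mpr Nat.card_pos.ne'
  have h1 := classInner_eq_zero_of_isIrr_of_ne hζ hψ hne
  rw [inner_irr hZ hZA hθ hψ he' hres] at h1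
  exact (mul_ne_zero (div_ne_zero (mul_ne_zero he0 hZ0) hA0) hover) h1

/-- Multiplicity one forces the inertia group to be `A`. -/
theorem inertia_eq_of_one {φ : A → ℂ} (hφ : IsIrrCharacter A φ)
    (hover : classInner (res hZA φ) θ ≠ 0) (h1 : classInner (fun a : A => ψ a) φ = 1) :
    inertia hA φ = A := by
  obtain ⟨g, hg, hidx⟩ := sq_mul_index hZ hA hZA hθ hψ he' hres hφ hover
  have hg1 : g = 1 := by
    rw [h1] at hg
    exact_mod_cast hg.symm
  subst hg1
  have hle : A ≤ inertia hA φ := le_inertia hA (isClassFunction_of_isIrrCharacter hφ)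
  have h2 := Subgroup.relIndex_mul_index hle
  rw [one_pow, one_mul] at hidx
  have hne : (inertia hA φ).index ≠ 0 := Subgroup.index_ne_zero_of_finite
  have h3 : A.relIndex (inertia hA φ) = 1 := by
    rw [← hidx] at h2
    exact Nat.eq_of_mul_eq_mul_right (Nat.pos_of_ne_zero hne) (by rw [h2, one_mul])
  exact le_antisymm (Subgroup.relIndex_eq_one.mp h3) hle

/-- Existence of a character of `A` over `θ` under `ψ`. -/
theorem exists_over_A : ∃ φ : A → ℂ, IsIrrCharacter A φ ∧ classInner (res hZA φ) θ ≠ 0 := by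
  classical
  haveI := finite_irrCharacter (G := A)
  letI : Fintype (IrrCharacter A) := Fintype.ofFinite _
  have he0 : (e' : ℂ) ≠ 0 := by
    intro h0
    have h1 : e' = 0 := by exact_mod_cast h0
    subst h1
    exact Subgroup.index_ne_zero_of_finite (by rw [← he']; norm_num : Z.index = 0)
  have h1 : classInner (fun z : Z => ψ z) θ ≠ 0 := by
    have h2 : (fun z : Z => ψ z) = (e' : ℂ) • θ := funext fun z => by simp [hres]
    rw [h2, classInner_smul_left, classInner_self_of_isIrr hθ, mul_one]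
    exact he0
  rw [classInner_res_eq_sum hZA (isClassFunction_of_isIrrCharacter hψ) θ] at h1
  obtain ⟨φ, _, hφ⟩ := Finset.exists_ne_zero_of_sum_ne_zero h1
  exact ⟨φ, φ.2, right_ne_zero_of_mul hφ⟩

/-- Transitivity of lying over. -/
theorem over_trans {ζ : S → ℂ} (hζ : IsCharacter S ζ) {φ : A → ℂ} (hφ : IsIrrCharacter A φ)
    (h1 : classInner (fun a : A => ζ a) φ ≠ 0) (hover : classInner (res hZA φ) θ ≠ 0) :
    classInner (fun z : Z => ζ z) θ ≠ 0 := by
  have hc : IsCharacter A (fun a : A => ζ a) := isCharacter_restrict A hζ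
  exact classInner_ne_zero_mono (Subgroup.inclusion hZA) hc hφ h1
    (isCharacter_of_isIrrCharacter hθ) hover

/-- **Cyclic sections**: if `S/A` is cyclic, then `S/A` acts freely on the characters of `A` over
the fully ramified `θ`. -/
theorem inertia_eq_of_cyclic (hcyc : IsCyclic (S ⧸ A)) {φ : A → ℂ} (hφ : IsIrrCharacter A φ)
    (hover : classInner (res hZA φ) θ ≠ 0) : inertia hA φ = A := by
  classical
  let T : Subgroup S := inertia hA φ
  letI : Fintype T := Fintype.ofFinite _
  have hNT : A ≤ T := le_inertia hA (isClassFunction_of_isIrrCharacter hφ)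
  let A' : Subgroup T := A.subgroupOf T
  have hA' : A'.Normal := hA.subgroupOf T
  letI : Fintype A' := Fintype.ofFinite _
  let eqv : A' ≃* A := Subgroup.subgroupOfEquivOfLe hNT
  let φ' : A' → ℂ := φ ∘ eqv
  have hφ' : IsIrrCharacter A' φ' := isIrrCharacter_comp_mulEquiv eqv hφ
  have hinv' : ∀ c : T, conjOn hA' c φ' = φ' := by
    intro c
    funext n
    have h1 : conjOn hA (c : S) φ = φ := c.2
    exact congrFun h1 (eqv n)
  have hcyc' : IsCyclic (T ⧸ A') := by
    let f : T →* S ⧸ A := (QuotientGroup.mk' A).comp T.subtype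
    have hf : A' ≤ f.ker := by
      intro x hx
      rw [MonoidHom.mem_ker]
      exact (QuotientGroup.eq_one_iff (x : S)).mpr hx
    let ff := QuotientGroup.lift A' f hf
    have hinj : Function.Injective ff := by
      rw [injective_iff_map_eq_one]
      intro q
      obtain ⟨x, rfl⟩ := QuotientGroup.mk_surjective q
      intro hx
      have h1 : ((x : S) : S ⧸ A) = 1 := hx
      exact (QuotientGroup.eq_one_iff x).mpr ((QuotientGroup.eq_one_iff (x : S)).mp h1)
    exact isCyclic_of_injective ff hinj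
  obtain ⟨ξ, hξ, hξres⟩ := Cfsg.Agent.Lib.Char.Extend.exists_irr_ext_of_cyclic hA' hφ' hinv' hcyc'
  have hresξ : res hNT ξ = φ := by
    funext a
    have := hξres (eqv.symm a)
    simp only [φ', Function.comp, MulEquiv.apply_symm_apply] at this
    exact this
  have hcon : classInner (res hNT ξ) φ ≠ 0 := by
    rw [hresξ, classInner_self_of_isIrr hφ]
    exact one_ne_zero
  obtain ⟨hζ, hmult⟩ := isIrrCharacter_indFun_of_lies_over hA hNT hφ rfl hξ hcon
  rw [hresξ, classInner_self_of_isIrr hφ] at hmult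
  have hζover : classInner (fun z : Z => indFun T ξ z) θ ≠ 0 :=
    over_trans hZ hA hZA hθ hψ he' hres (isCharacter_of_isIrrCharacter hζ) hφ
      (by rw [hmult]; exact one_ne_zero) hover
  have hζψ := eq_of_over hZ hZA hθ hψ he' hres hζ hζover
  rw [hζψ] at hmult
  exact inertia_eq_of_one hZ hA hZA hθ hψ he' hres hφ hover hmult

end SLevel

section HLevel

variable {H : Type u} [Group H] [Fintype H] (Z : Subgroup H) [hZ : Z.Normal] [Fintype Z]

/-- **Descent to a subgroup of coprime index** (DeMeyer–Janusz): if `S/Z` has order prime to the index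
of `S`, then over the fully ramified `θ` there is a fully ramified character of `S`. -/
theorem descend (θ : Z → ℂ) (hθ : IsIrrCharacter Z θ) (e : ℕ) (he : e ^ 2 = Z.index)
    {χ : H → ℂ} (hχ : IsIrrCharacter H χ) (hres : ∀ z : Z, χ z = (e : ℂ) * θ z)
    (S : Subgroup H) [Fintype S] (hZS : Z ≤ S) [Fintype (Z.subgroupOf S)]
    (hcop : Nat.Coprime S.index (Z.subgroupOf S).index) :
    ∃ (ψ : S → ℂ) (e' a : ℕ), IsIrrCharacter S ψ ∧ e' ^ 2 = (Z.subgroupOf S).index ∧
      (∀ z : Z.subgroupOf S, ψ z = (e' : ℂ) * (θ ∘ Subgroup.subgroupOfEquivOfLe hZS) z) ∧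
      e = a * e' ∧ a ^ 2 = S.index ∧ ∀ s : S, χ s = (a : ℂ) * ψ s := by
  classical
  let Z' : Subgroup S := Z.subgroupOf S
  have hZ' : Z'.Normal := hZ.subgroupOf S
  let eqv : Z' ≃* Z := Subgroup.subgroupOfEquivOfLe hZS
  let θ' : Z' → ℂ := θ ∘ eqv
  have hθ' : IsIrrCharacter Z' θ' := isIrrCharacter_comp_mulEquiv eqv hθ
  have hinvH : ∀ x : H, conjOn hZ x θ = θ := invariant_theta hZ hZ le_rfl hθ hχ he hres
  have hinv' : ∀ c : S, conjOn hZ' c θ' = θ' := by
    intro c
    funext n
    exact congrFun (hinvH (c : H)) (eqv n)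
  have hχ0 := fun (h : H) (hh : h ∉ Z) => vanish_off Z θ hθ e he hχ hres hh
  have he0 : (e : ℂ) ≠ 0 := by
    intro h0
    have h1 : e = 0 := by exact_mod_cast h0
    subst h1
    exact Subgroup.index_ne_zero_of_finite (by rw [← he]; norm_num : Z.index = 0)
  have hcon0 : classInner (fun z : Z => χ z) θ ≠ 0 := by
    have h2 : (fun z : Z => χ z) = (e : ℂ) • θ := funext fun z => by simp [hres]
    rw [h2, classInner_smul_left, classInner_self_of_isIrr hθ, mul_one]
    exact he0
  obtain ⟨τ, hτ, hχτ, hτθ⟩ := Cfsg.Agent.Lib.BlockP.PSolvHeight.exists_over hZS hχ hcon0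
  obtain ⟨f, hf⟩ := exists_nat_classInner (isCharacter_restrict Z' (isCharacter_of_isIrrCharacter hτ))
    (isCharacter_of_isIrrCharacter hθ')
  have hf' : classInner (fun n : Z.subgroupOf S => τ n) (θ ∘ Subgroup.subgroupOfEquivOfLe hZS) = f := hf
  obtain ⟨a, ha⟩ := exists_nat_classInner (isCharacter_restrict S (isCharacter_of_isIrrCharacter hχ))
    (isCharacter_of_isIrrCharacter hτ)
  have hτres : ∀ n : Z', τ n = (f : ℂ) * θ' n := by
    intro n
    have := Cfsg.Agent.Lib.BlockP.PSolvHeight.restrict_eq_smul hZ' hθ' hinv' hτ hτθ n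
    rw [this, hf']
  have hf0 : f ≠ 0 := by
    intro h0
    rw [hf', h0] at hτθ
    exact hτθ (by simp)
  have hS0 : (Nat.card S : ℂ) ≠ 0 := Nat.cast_ne_zero.mpr Nat.card_pos.ne'
  have hZ'0 : (Nat.card Z' : ℂ) ≠ 0 := Nat.cast_ne_zero.mpr Nat.card_pos.ne'
  have hθsum : ∑ z : Z', θ' z * conj (θ' z) = (Nat.card Z' : ℂ) := by
    have h2 := classInner_self_of_isIrr hθ'
    unfold classInner at h2
    field_simp at h2; linear_combination h2
  -- the inner product of `χ` and `τ`
  have hχZ' : ∀ n : Z', χ ((n : S) : H) = (e : ℂ) * θ' n := fun n => hres (eqv n)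
  have hcardS : (Nat.card S : ℂ) = (Z'.index : ℂ) * Nat.card Z' := by
    have := Subgroup.card_mul_index Z'
    rw [← this]; push_cast; ring
  have hq : (a : ℂ) * (Z'.index : ℂ) = (e : ℂ) * f := by
    have h1 : ∑ s : S, χ s * conj (τ s) = ∑ z : Z', (e : ℂ) * f * (θ' z * conj (θ' z)) := by
      symm
      refine Finset.sum_of_injOn (fun z : Z' => (z : S)) ?_
        (fun _ _ => Finset.mem_coe.mpr (Finset.mem_univ _)) ?_ ?_
      · intro x _ y _ hxy
        exact Subtype.ext hxy
      · intro s _ hs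
        rw [hχ0 s, zero_mul]
        intro hmem
        exact hs ⟨⟨s, hmem⟩, Finset.mem_coe.mpr (Finset.mem_univ _), rfl⟩
      · intro z _
        rw [hχZ', hτres, map_mul, Complex.conj_natCast]
        ring
    rw [← Finset.mul_sum, hθsum] at h1
    unfold classInner at ha
    rw [h1] at ha
    have h2 : (a : ℂ) * (Nat.card S : ℂ) = (e : ℂ) * f * Nat.card Z' := by
      rw [← ha]; field_simp
    rw [hcardS] at h2
    apply mul_right_cancel₀ hZ'0
    linear_combination h2
  have hq' : a * Z'.index = e * f := by exact_mod_cast hq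
  -- the bound
  have hle : f ^ 2 ≤ Z'.index := by
    have hτ1 := classInner_self_of_isIrr hτ
    unfold classInner at hτ1
    have h1 : ∑ s : S, τ s * conj (τ s) = (Nat.card S : ℂ) := by
      field_simp at hτ1; linear_combination hτ1
    have hnn : ∀ s : S, τ s * conj (τ s) = ((Complex.normSq (τ s) : ℝ) : ℂ) := fun s =>
      Complex.mul_conj _
    simp_rw [hnn] at h1
    have h2 : ∑ s : S, Complex.normSq (τ s) = (Nat.card S : ℝ) := by exact_mod_cast h1
    have h3 : ∑ z : Z', Complex.normSq (τ (z : S)) ≤ ∑ s : S, Complex.normSq (τ s) := by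
      have h4 : ∑ z : Z', Complex.normSq (τ (z : S))
          = ∑ s ∈ Finset.univ.image (fun z : Z' => (z : S)), Complex.normSq (τ s) := by
        rw [Finset.sum_image (fun x _ y _ hxy => Subtype.ext hxy)]
      rw [h4]
      exact Finset.sum_le_univ_sum_of_nonneg (fun _ => Complex.normSq_nonneg _)
    have h5 : ∑ z : Z', Complex.normSq (τ (z : S)) = (f : ℝ) ^ 2 * Nat.card Z' := by
      have h6 : ∀ z : Z', Complex.normSq (τ (z : S)) = (f : ℝ) ^ 2 * Complex.normSq (θ' z) := by
        intro z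
        rw [hτres, map_mul, Complex.normSq_natCast]
        ring
      simp_rw [h6]
      rw [← Finset.mul_sum]
      have h7 : ∑ z : Z', Complex.normSq (θ' z) = (Nat.card Z' : ℝ) := by
        have h8 : ∑ z : Z', θ' z * conj (θ' z) = ((∑ z : Z', Complex.normSq (θ' z) : ℝ) : ℂ) := by
          push_cast
          exact Finset.sum_congr rfl fun z _ => Complex.mul_conj _
        rw [hθsum] at h8
        exact_mod_cast h8.symm
      rw [h7]
    rw [h5, h2] at h3
    have h9 : (Nat.card S : ℝ) = (Z'.index : ℝ) * Nat.card Z' := by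
      have := Subgroup.card_mul_index Z'
      rw [← this]; push_cast; ring
    rw [h9] at h3
    have h10 : (0 : ℝ) < Nat.card Z' := by exact_mod_cast Nat.card_pos
    have h11 : (f : ℝ) ^ 2 ≤ Z'.index := le_of_mul_le_mul_right h3 h10
    exact_mod_cast h11
  -- the arithmetic
  have hqne : Z'.index ≠ 0 := Subgroup.index_ne_zero_of_finite
  have hidx : Z'.index * S.index = Z.index := Subgroup.relIndex_mul_index hZS
  have he2 : e ^ 2 = Z'.index * S.index := by rw [he, hidx]
  have h1 : a ^ 2 * Z'.index = S.index * f ^ 2 := by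
    have h2 : (a * Z'.index) ^ 2 = (e * f) ^ 2 := by rw [hq']
    have h3 : Z'.index * (a ^ 2 * Z'.index) = Z'.index * (S.index * f ^ 2) := by
      calc Z'.index * (a ^ 2 * Z'.index) = (a * Z'.index) ^ 2 := by ring
        _ = (e * f) ^ 2 := h2
        _ = e ^ 2 * f ^ 2 := by ring
        _ = _ := by rw [he2]; ring
    exact Nat.eq_of_mul_eq_mul_left (Nat.pos_of_ne_zero hqne) h3
  have hdvd : Z'.index ∣ f ^ 2 := by
    have h2 : Z'.index ∣ S.index * f ^ 2 := ⟨a ^ 2, by rw [← h1]; ring⟩
    exact (Nat.Coprime.dvd_mul_left hcop.symm).mp h2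
  have hsq : f ^ 2 = Z'.index := le_antisymm hle (Nat.le_of_dvd (by positivity) hdvd)
  have hae : e = a * f := by
    have h2 : a * f ^ 2 = e * f := by rw [hsq]; exact hq'
    have h3 : f * (a * f) = f * e := by
      calc f * (a * f) = a * f ^ 2 := by ring
        _ = e * f := h2
        _ = _ := by ring
    exact (Nat.eq_of_mul_eq_mul_left (Nat.pos_of_ne_zero hf0) h3).symm
  have ha2 : a ^ 2 = S.index := by
    rw [hsq, mul_comm] at h1
    exact Nat.eq_of_mul_eq_mul_left (Nat.pos_of_ne_zero hqne) (by rw [h1]; ring)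
  refine ⟨τ, f, a, hτ, hsq, hτres, hae, ha2, ?_⟩
  intro s
  by_cases hs : (s : H) ∈ Z
  · have h2 := hχZ' ⟨s, hs⟩
    have h3 := hτres ⟨s, hs⟩
    simp only [] at h2 h3
    rw [h2, h3, hae]
    push_cast
    ring
  · have h2 : s ∉ Z' := hs
    rw [hχ0 _ hs, vanish_off Z' θ' hθ' f hsq hτ hτres h2, mul_zero]

end HLevel

end Cfsg.Agent.Lib.BlockH.FullyRam2
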