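import Cfsg.Agent.Lib.BlockH.FullyRam2
import Cfsg.Agent.Lib.ClassPow.Basic
import Cfsg.Agent.Lib.ElementFusion.Control

/-!
# Permutation lemma and Frattini argument for the complements in sections of fully ramified groups
-/

set_option autoImplicit false
set_option linter.unusedSectionVars false
set_option linter.style.haveILetI false
set_option linter.unusedVariables false

namespace Cfsg.Agent.Lib.BlockH.FullyRam3

universe u

open MulAction in
/-- The permutation argument. -/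
theorem exists_subgroup_index {H : Type u} [Group H] [Finite H] {Y : Type*} [MulAction H Y] (y : Y)
    (K G S : Subgroup H) [hK : K.Normal] (hSG : S ≤ G)
    (hHKG : ∀ h : H, ∃ g ∈ G, (h : H ⧸ K) = (g : H ⧸ K))
    (ha : ∀ g ∈ G, ∃ x ∈ S, g • y = x • y) (hb : ∀ x ∈ S, x • y = y → x ∈ K)
    (hc : ∀ x ∈ S ⊓ K, x • y = y)
    (p b : ℕ) (hp : p.Prime) (hd : ¬ p ∣ (S ⊓ K).relIndex (K ⊓ G))
    (he : (S ⊓ K).relIndex S = p ^ b) :
    ∃ M : Subgroup (H ⧸ K), M.index = p ^ b := by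
  classical
  have horb : orbit G y = orbit S y := by
    ext w; constructor
    · rintro ⟨⟨g, hg⟩, rfl⟩
      obtain ⟨x, hx, hgx⟩ := ha g hg
      exact ⟨⟨x, hx⟩, hgx.symm⟩
    · rintro ⟨⟨x, hx⟩, rfl⟩
      exact ⟨⟨x, hSG hx⟩, rfl⟩
  have hstabS : stabilizer S y = (S ⊓ K).subgroupOf S := by
    ext x
    rw [mem_stabilizer_iff, Subgroup.mem_subgroupOf]
    constructor
    · intro h
      exact ⟨x.2, hb x x.2 h⟩
    · intro h
      exact hc x h
  have hcard : (orbit G y).ncard = p ^ b := by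
    rw [horb, ← index_stabilizer, hstabS]
    exact he
  -- the block argument
  let L : Subgroup G := K.subgroupOf G
  haveI hLn : L.Normal := hK.subgroupOf G
  let x₀ : orbit G y := ⟨y, mem_orbit_self y⟩
  have hblock : IsBlock G (orbit L x₀) := IsBlock.orbit_of_normal x₀
  have hdvd1 : (orbit L x₀).ncard ∣ Nat.card (orbit G y) :=
    hblock.ncard_dvd_card ⟨x₀, mem_orbit_self x₀⟩
  rw [Nat.card_coe_set_eq, hcard] at hdvd1
  have hstabL : ((S ⊓ K).subgroupOf G).subgroupOf L ≤ stabilizer L x₀ := by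
    intro u hu
    rw [mem_stabilizer_iff]
    apply Subtype.ext
    have h1 : ((u : G) : H) ∈ S ⊓ K := hu
    exact hc _ h1
  have hdvd2 : (orbit L x₀).ncard ∣ (S ⊓ K).relIndex (K ⊓ G) := by
    rw [← index_stabilizer]
    have h1 : (S ⊓ K).relIndex (K ⊓ G) = (((S ⊓ K).subgroupOf G).subgroupOf L).index := by
      have h2 := Subgroup.relIndex_comap (H := S ⊓ K) G.subtype L
      have h3 : L.map G.subtype = K ⊓ G := Subgroup.subgroupOf_map_subtype K G
      rw [h3] at h2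
      rw [← h2]
      rfl
    rw [h1]
    exact Subgroup.index_dvd_of_le hstabL
  have hone : (orbit L x₀).ncard = 1 := by
    obtain ⟨c, hc', hnc⟩ := (Nat.dvd_prime_pow hp).mp hdvd1
    rcases Nat.eq_zero_or_pos c with rfl | hcpos
    · simpa using hnc
    · exfalso
      apply hd
      refine dvd_trans ?_ hdvd2
      rw [hnc]
      exact dvd_pow_self p hcpos.ne'
  have hfix : ∀ l : L, l • x₀ = x₀ := by
    intro l
    obtain ⟨a, ha'⟩ := Set.ncard_eq_one.mp hone
    have h1 : x₀ ∈ orbit L x₀ := mem_orbit_self x₀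
    have h2 : l • x₀ ∈ orbit L x₀ := mem_orbit x₀ l
    rw [ha'] at h1 h2
    rw [Set.mem_singleton_iff.mp h2, Set.mem_singleton_iff.mp h1]
  -- the complement
  let N₀ : Subgroup G := stabilizer G y
  let π : G →* H ⧸ K := (QuotientGroup.mk' K).comp G.subtype
  have hker : π.ker ≤ N₀ := by
    intro x hx
    have h1 : (x : H) ∈ K := (QuotientGroup.eq_one_iff (x : H)).mp hx
    have h2 := hfix ⟨x, h1⟩
    have h3 := congrArg Subtype.val h2
    exact h3
  have hsurj : Function.Surjective π := by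
    intro q
    obtain ⟨h, rfl⟩ := QuotientGroup.mk_surjective q
    obtain ⟨g, hg, hgh⟩ := hHKG h
    exact ⟨⟨g, hg⟩, hgh.symm⟩
  refine ⟨N₀.map π, ?_⟩
  rw [Subgroup.index_map, sup_eq_left.mpr hker, MonoidHom.range_eq_top.mpr hsurj,
    Subgroup.index_top, mul_one]
  show (stabilizer G y).index = p ^ b
  rw [index_stabilizer, hcard]

/-- Frattini in the form we need. -/
theorem frat_aux {Q : Type u} [Group Q] [Finite Q] {p : ℕ} [hp : Fact p.Prime] (Sb : Sylow p Q)
    (N : Subgroup Q) [hN : N.Normal] (x : Q) :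
    ∃ n ∈ Subgroup.normalizer (((Sb : Subgroup Q) ⊓ N : Subgroup Q) : Set Q), ∃ k ∈ N, n * k = x := by
  have hP1 : IsPGroup p ((Sb : Subgroup Q).subgroupOf N) := Sb.isPGroup'.comap_subtype
  have hP2 : ¬ p ∣ ((Sb : Subgroup Q).subgroupOf N).index :=
    Cfsg.Agent.Lib.ElementFusion.Control.not_dvd_relIndex_of_normal Sb N
  have hsup := Sylow.normalizer_sup_eq_top (hP1.toSylow hP2)
  have hmap : (((hP1.toSylow hP2 : Sylow p N) : Subgroup N).map N.subtype) = (Sb : Subgroup Q) ⊓ N := by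
    rw [hP1.toSylow_coe hP2]
    exact Subgroup.subgroupOf_map_subtype _ _
  have hsup' : Subgroup.normalizer (((Sb : Subgroup Q) ⊓ N : Subgroup Q) : Set Q) ⊔ N = ⊤ := by
    rw [← hmap]
    exact hsup
  have hmem : x ∈ Subgroup.normalizer (((Sb : Subgroup Q) ⊓ N : Subgroup Q) : Set Q) ⊔ N := by
    rw [hsup']; trivial
  have h1 : x ∈ ((Subgroup.normalizer (((Sb : Subgroup Q) ⊓ N : Subgroup Q) : Set Q) ⊔ N : Subgroup Q) : Set Q) := hmem
  rw [Subgroup.mul_normal] at h1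
  obtain ⟨n, hn, k, hk, hnk⟩ := Set.mem_mul.mp h1
  exact ⟨n, hn, k, hk, hnk⟩

section Frattini

variable {H : Type u} [Group H] [Finite H] (Z K : Subgroup H) [hZ : Z.Normal] [hK : K.Normal]
  (hZK : Z ≤ K) (p : ℕ) [hp : Fact p.Prime] (Sb : Sylow p (H ⧸ Z))

/-- The preimage of a Sylow subgroup of the quotient. -/
def Sof : Subgroup H := (Sb : Subgroup (H ⧸ Z)).comap (QuotientGroup.mk' Z)

theorem mem_Sof (x : H) : x ∈ Sof Z p Sb ↔ ((x : H) : H ⧸ Z) ∈ (Sb : Subgroup (H ⧸ Z)) := Iff.rfl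

theorem Z_le_Sof : Z ≤ Sof Z p Sb := by
  intro z hz
  rw [mem_Sof, (QuotientGroup.eq_one_iff z).mpr hz]
  exact Subgroup.one_mem _

theorem index_Sof : (Sof Z p Sb).index = (Sb : Subgroup (H ⧸ Z)).index :=
  Subgroup.index_comap_of_surjective _ (QuotientGroup.mk'_surjective Z)

theorem not_dvd_index_Sof : ¬ p ∣ (Sof Z p Sb).index := by
  rw [index_Sof]
  exact Sb.not_dvd_index

theorem relIndex_Sof : ∃ c : ℕ, Z.relIndex (Sof Z p Sb) = p ^ c := by
  obtain ⟨c, hc⟩ := IsPGroup.iff_card.mp Sb.isPGroup'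
  refine ⟨c, ?_⟩
  have h1 := Subgroup.relIndex_mul_index (Z_le_Sof Z p Sb)
  have h2 : Z.index = Nat.card (Sb : Subgroup (H ⧸ Z)) * (Sb : Subgroup (H ⧸ Z)).index := by
    rw [Subgroup.card_mul_index]
    rfl
  rw [h2, index_Sof] at h1
  have h3 : (Sb : Subgroup (H ⧸ Z)).index ≠ 0 := Subgroup.index_ne_zero_of_finite
  rw [← hc]
  exact Nat.eq_of_mul_eq_mul_right (Nat.pos_of_ne_zero h3) h1

include hZK in
theorem frattini (h : H) : ∃ g ∈ Subgroup.normalizer ((Sof Z p Sb ⊓ K : Subgroup H) : Set H),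
    (h : H ⧸ K) = (g : H ⧸ K) := by
  classical
  let Kb : Subgroup (H ⧸ Z) := K.map (QuotientGroup.mk' Z)
  haveI hKb : Kb.Normal := hK.map _ (QuotientGroup.mk'_surjective Z)
  have hmemK : ∀ y : H, ((y : H) : H ⧸ Z) ∈ Kb ↔ y ∈ K := by
    intro y
    constructor
    · rintro ⟨k, hk, hky⟩
      have h1 : k⁻¹ * y ∈ Z := QuotientGroup.eq.mp hky
      have := K.mul_mem hk (hZK h1)
      simpa using this
    · intro hy
      exact ⟨y, hy, rfl⟩
  obtain ⟨n, hn, k, hk, hnk⟩ := frat_aux Sb Kb ((h : H) : H ⧸ Z)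
  obtain ⟨g, rfl⟩ := QuotientGroup.mk_surjective n
  obtain ⟨k₀, hk₀, rfl⟩ := hk
  refine ⟨g, ?_, ?_⟩
  · rw [Subgroup.mem_normalizer_iff]
    intro y
    have h1 : ∀ y : H, y ∈ (Sof Z p Sb ⊓ K : Subgroup H) ↔ ((y : H) : H ⧸ Z) ∈ (Sb : Subgroup (H ⧸ Z)) ⊓ Kb := by
      intro y
      rw [Subgroup.mem_inf, Subgroup.mem_inf, mem_Sof, hmemK]
    have h2 := (Subgroup.mem_normalizer_iff.mp hn) ((y : H) : H ⧸ Z)
    have h3 : ((g * y * g⁻¹ : H) : H ⧸ Z) = ((g : H) : H ⧸ Z) * ((y : H) : H ⧸ Z) * ((g : H) : H ⧸ Z)⁻¹ := rfl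
    constructor
    · intro hy
      refine (h1 _).mpr ?_
      rw [h3]
      exact h2.mp ((h1 y).mp hy)
    · intro hy
      refine (h1 y).mpr (h2.mpr ?_)
      have h4 := (h1 _).mp hy
      rw [h3] at h4
      exact h4
  · have h3 : ((g * k₀ : H) : H ⧸ Z) = ((h : H) : H ⧸ Z) := hnk
    have h4 : (g * k₀)⁻¹ * h ∈ Z := QuotientGroup.eq.mp h3
    have h5 : (g : H ⧸ K) = (h : H ⧸ K) := by
      rw [QuotientGroup.eq]
      have h6 := K.mul_mem hk₀ (hZK h4)
      have h7 : k₀ * ((g * k₀)⁻¹ * h) = g⁻¹ * h := by group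
      rwa [h7] at h6
    exact h5.symm

include hZK in
/-- Numerics of the Sylow data. -/
theorem relIndex_data : ∃ b : ℕ, (Sof Z p Sb ⊓ K).relIndex (Sof Z p Sb) = p ^ b ∧
    b = K.index.factorization p ∧ ¬ p ∣ (Sof Z p Sb ⊓ K).relIndex K := by
  classical
  set S := Sof Z p Sb with hS
  have hSp : ¬ p ∣ S.index := not_dvd_index_Sof Z p Sb
  obtain ⟨c, hc⟩ := relIndex_Sof Z p Sb
  have h1 : (S ⊓ K).relIndex S = K.relIndex S := Subgroup.inf_relIndex_left _ _
  have h2 : K.relIndex S ∣ Z.relIndex S := Subgroup.relIndex_dvd_of_le_left S hZK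
  rw [hc] at h2
  obtain ⟨b, _, hb⟩ := (Nat.dvd_prime_pow hp.out).mp h2
  have h3 : K.relIndex (S ⊔ K) = K.relIndex S := Subgroup.relIndex_sup_right S K
  have h4 := Subgroup.relIndex_mul_index (le_sup_right : K ≤ S ⊔ K)
  have h5 : (S ⊔ K).index ∣ S.index := Subgroup.index_dvd_of_le le_sup_left
  have h6 : ¬ p ∣ (S ⊔ K).index := fun h => hSp (dvd_trans h h5)
  rw [h3, hb] at h4
  refine ⟨b, by rw [h1, hb], ?_, ?_⟩
  · rw [← h4, Nat.factorization_mul (pow_ne_zero _ hp.out.ne_zero) (fun h => h6 (by rw [h]; simp))]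
    simp [hp.out, Nat.factorization_eq_zero_of_not_dvd h6]
  · rw [Subgroup.inf_relIndex_right]
    exact fun h => hSp (dvd_trans h (Cfsg.Agent.Lib.ClassPow.relIndex_dvd_index_of_normal_right S K))

end Frattini

section Main

open Cfsg Module
open Cfsg.Agent.Lib.Char.Basic Cfsg.Agent.Lib.Char.Ortho Cfsg.Agent.Lib.Char.Complete
open Cfsg.Agent.Lib.Char.Conj Cfsg.Agent.Lib.Char.Clifford Cfsg.Agent.Lib.Char.ClassSum
open Cfsg.Agent.Lib.Char.CliffordCorr Cfsg.Agent.Lib.Char.Induced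
open Cfsg.Agent.Lib.BlockH.FullyRam Cfsg.Agent.Lib.BlockH.FullyRam2
open scoped ComplexConjugate

variable {H : Type u} [Group H] [Fintype H] (Z K : Subgroup H) [hZ : Z.Normal] [hK : K.Normal]
  (hZK : Z ≤ K) [Fintype Z]

/-- Conjugation action on functions. -/
@[reducible] def conjAct : MulAction H (H → ℂ) where
  smul x f := fun h => f (x⁻¹ * h * x)
  one_smul f := by
    funext h
    show f (1⁻¹ * h * 1) = f h
    simp
  mul_smul x y f := by
    funext h
    show f ((x * y)⁻¹ * h * (x * y)) = f (y⁻¹ * (x⁻¹ * h * x) * y)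
    congr 1
    group

include hZK in
/-- The main construction. -/
theorem main_core (θ : Z → ℂ) (hθ : IsIrrCharacter Z θ) (e : ℕ) (he : e ^ 2 = Z.index)
    {χ : H → ℂ} (hχ : IsIrrCharacter H χ) (hres : ∀ z : Z, χ z = (e : ℂ) * θ z)
    (p : ℕ) [hp : Fact p.Prime]
    (hreg : ∀ (S : Subgroup H) [Fintype S] [Fintype (Z.subgroupOf S)] [Fintype (K.subgroupOf S)]
      (hZS : Z ≤ S) (hSp : ¬ p ∣ S.index)
      (hq : ∃ c : ℕ, Z.relIndex S = p ^ c) (ψ : S → ℂ) (e' a : ℕ) (hψ : IsIrrCharacter S ψ)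
      (he' : e' ^ 2 = (Z.subgroupOf S).index)
      (hresψ : ∀ z : Z.subgroupOf S, ψ z = (e' : ℂ) * (θ ∘ Subgroup.subgroupOfEquivOfLe hZS) z)
      (hae : e = a * e') (ha2 : a ^ 2 = S.index) (hχψ : ∀ s : S, χ s = (a : ℂ) * ψ s)
      (hA : (K.subgroupOf S).Normal) (hZA : Z.subgroupOf S ≤ K.subgroupOf S)
      (φ : K.subgroupOf S → ℂ), IsIrrCharacter (K.subgroupOf S) φ →
      classInner (res hZA φ) (θ ∘ Subgroup.subgroupOfEquivOfLe hZS) ≠ 0 →
      inertia hA φ = K.subgroupOf S) :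
    ∃ M : Subgroup (H ⧸ K), M.index = p ^ K.index.factorization p := by
  classical
  obtain ⟨Sb⟩ : Nonempty (Sylow p (H ⧸ Z)) := inferInstance
  let S : Subgroup H := Sof Z p Sb
  letI : Fintype S := Fintype.ofFinite _
  letI : Fintype (Z.subgroupOf S) := Fintype.ofFinite _
  letI : Fintype (K.subgroupOf S) := Fintype.ofFinite _
  have hZS : Z ≤ S := Z_le_Sof Z p Sb
  have hSp : ¬ p ∣ S.index := not_dvd_index_Sof Z p Sb
  have hq := relIndex_Sof Z p Sb
  obtain ⟨b, hb1, hb2, hb3⟩ := relIndex_data Z K hZK p Sb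
  have hcop : Nat.Coprime S.index (Z.subgroupOf S).index := by
    obtain ⟨c, hc⟩ := hq
    have : (Z.subgroupOf S).index = p ^ c := hc
    rw [this]
    exact Nat.Coprime.pow_right _ (((Nat.Prime.coprime_iff_not_dvd hp.out).mpr hSp).symm)
  obtain ⟨ψ, e', a, hψ, he', hresψ, hae, ha2, hχψ⟩ := descend Z θ hθ e he hχ hres S hZS hcop
  have hA : (K.subgroupOf S).Normal := hK.subgroupOf S
  have hZ_S : (Z.subgroupOf S).Normal := hZ.subgroupOf S
  have hZA : Z.subgroupOf S ≤ K.subgroupOf S := fun x hx => hZK hx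
  let eqvZ : Z.subgroupOf S ≃* Z := Subgroup.subgroupOfEquivOfLe hZS
  let θS : Z.subgroupOf S → ℂ := θ ∘ eqvZ
  have hθS : IsIrrCharacter (Z.subgroupOf S) θS := isIrrCharacter_comp_mulEquiv eqvZ hθ
  have hregφ := hreg S hZS hSp hq ψ e' a hψ he' hresψ hae ha2 hχψ hA hZA
  obtain ⟨φS, hφS, hover⟩ := exists_over_A hZ_S hA hZA hθS hψ he' hresψ
  have hinert := hregφ φS hφS hover
  -- the function on `S ⊓ K`
  let S₀ : Subgroup H := S ⊓ K
  let e₂ : K.subgroupOf S ≃* S₀ :=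
    { toFun := fun a => ⟨a.1.1, a.1.2, a.2⟩
      invFun := fun s => ⟨⟨s.1, s.2.1⟩, s.2.2⟩
      left_inv := fun a => rfl
      right_inv := fun s => rfl
      map_mul' := fun a b => rfl }
  let φ₀ : S₀ → ℂ := φS ∘ e₂.symm
  have hφ₀ : IsIrrCharacter S₀ φ₀ := isIrrCharacter_comp_mulEquiv e₂.symm hφS
  have hφ₀cf := isClassFunction_of_isIrrCharacter hφ₀
  let y : H → ℂ := fun h => if hh : h ∈ S₀ then φ₀ ⟨h, hh⟩ else 0
  letI : MulAction H (H → ℂ) := conjAct
  let G : Subgroup H := Subgroup.normalizer (S₀ : Set H)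
  have hSG : S ≤ G := by
    intro x hx
    rw [Subgroup.mem_normalizer_iff]
    intro t
    constructor
    · intro ht
      exact ⟨S.mul_mem (S.mul_mem hx ht.1) (S.inv_mem hx), hK.conj_mem t ht.2 x⟩
    · intro ht
      have h1 : t = x⁻¹ * (x * t * x⁻¹) * x := by group
      rw [h1]
      exact ⟨S.mul_mem (S.mul_mem (S.inv_mem hx) ht.1) hx, by
        have := hK.conj_mem _ ht.2 x⁻¹
        simpa using this⟩
  have hact : ∀ (x : H) (h : H), (x • y) h = y (x⁻¹ * h * x) := fun _ _ => rfl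
  have hmemG : ∀ x ∈ G, ∀ h : H, x⁻¹ * h * x ∈ S₀ ↔ h ∈ S₀ := by
    intro x hx h
    have h1 := (Subgroup.mem_normalizer_iff.mp hx) (x⁻¹ * h * x)
    have h2 : x * (x⁻¹ * h * x) * x⁻¹ = h := by group
    rw [h2] at h1
    exact h1
  have hmemG' : ∀ x ∈ G, ∀ h : H, x * h * x⁻¹ ∈ S₀ ↔ h ∈ S₀ := by
    intro x hx h
    exact (Subgroup.mem_normalizer_iff.mp hx h).symm
  have hyval : ∀ (s : H) (hs : s ∈ S₀), y s = φ₀ ⟨s, hs⟩ := fun s hs => by
    simp only [y, dif_pos hs]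
  have hy0 : ∀ s : H, s ∉ S₀ → y s = 0 := fun s hs => by
    simp only [y, dif_neg hs]
  have hinvθ := invariant_theta hZ hZ le_rfl hθ hχ he hres
  -- transitivity
  have ha : ∀ g ∈ G, ∃ x ∈ S, g • y = x • y := by
    intro g hg
    let σ : S₀ ≃* S₀ :=
      { toFun := fun s => ⟨g⁻¹ * s * g, (hmemG g hg s).mpr s.2⟩
        invFun := fun s => ⟨g * s * g⁻¹, (hmemG' g hg s).mpr s.2⟩
        left_inv := fun s => by ext; simp [mul_assoc]
        right_inv := fun s => by ext; simp [mul_assoc]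
        map_mul' := fun a b => by ext; simp [mul_assoc] }
    let φg : K.subgroupOf S → ℂ := φS ∘ (e₂.trans (σ.trans e₂.symm))
    have hφg : IsIrrCharacter (K.subgroupOf S) φg := isIrrCharacter_comp_mulEquiv _ hφS
    let τ : Z.subgroupOf S ≃* Z.subgroupOf S :=
      eqvZ.trans ((MulAut.conjNormal g⁻¹).trans eqvZ.symm)
    have hτ1 : res hZA φg = (res hZA φS) ∘ τ := by
      funext z
      show φS (e₂.symm (σ (e₂ _))) = φS _
      congr 1
      apply Subtype.ext
      apply Subtype.ext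
      show g⁻¹ * _ * g = g⁻¹ * _ * g⁻¹⁻¹
      rw [inv_inv]
      rfl
    have hτ2 : θS = θS ∘ τ := by
      funext z
      have h1 := congrFun (hinvθ g⁻¹) (eqvZ z)
      show θ (eqvZ z) = θ (eqvZ (eqvZ.symm ((MulAut.conjNormal g⁻¹) (eqvZ z))))
      rw [MulEquiv.apply_symm_apply]
      exact h1.symm
    have hoverg : classInner (res hZA φg) θS ≠ 0 := by
      rw [hτ1, hτ2, classInner_comp_mulEquiv]
      exact hover
    obtain ⟨x, hx⟩ := exists_conj hZ_S hA hZA hθS hψ he' hresψ hφS hφg hover hoverg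
    refine ⟨(x : H)⁻¹, S.inv_mem x.2, ?_⟩
    funext h
    rw [hact, hact, inv_inv]
    have hxG : (x : H) ∈ G := hSG x.2
    by_cases hh : h ∈ S₀
    · rw [hyval _ ((hmemG g hg h).mpr hh), hyval _ ((hmemG' _ hxG h).mpr hh)]
      have h1 := congrFun hx (e₂.symm ⟨h, hh⟩)
      exact h1.symm
    · rw [hy0 _ (fun h1 => hh ((hmemG g hg h).mp h1)), hy0 _ (fun h1 => hh ((hmemG' _ hxG h).mp h1))]
  -- freeness
  have hb : ∀ x ∈ S, x • y = y → x ∈ K := by
    intro x hx hxy
    have h1 : ((⟨x, hx⟩ : S)⁻¹ : S) ∈ inertia hA φS := by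
      show conjOn hA ((⟨x, hx⟩ : S)⁻¹) φS = φS
      funext a
      have h2 := congrFun hxy (a : S)
      rw [hact] at h2
      have hamem : ((a : S) : H) ∈ S₀ := ⟨(a : S).2, a.2⟩
      rw [hyval _ ((hmemG x (hSG hx) _).mpr hamem), hyval _ hamem] at h2
      simp only [conjOn_apply]
      have h3 : φ₀ ⟨x⁻¹ * (a : S) * x, (hmemG x (hSG hx) _).mpr hamem⟩ = φS (e₂.symm ⟨x⁻¹ * (a : S) * x, (hmemG x (hSG hx) _).mpr hamem⟩) := rfl
      rw [h3] at h2
      have h4 : φS a = φ₀ ⟨((a : S) : H), hamem⟩ := rfl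
      rw [h4, ← h2]
      congr 1
      apply Subtype.ext
      apply Subtype.ext
      show (x⁻¹ * ((a : S) : H) * x⁻¹⁻¹) = _
      rw [inv_inv]
      rfl
    rw [hinert] at h1
    have h2 : x⁻¹ ∈ K := h1
    simpa using K.inv_mem h2
  -- triviality of `S ⊓ K`
  have hc : ∀ x ∈ S ⊓ K, x • y = y := by
    intro x hx
    funext h
    rw [hact]
    have hxG : x ∈ G := hSG hx.1
    by_cases hh : h ∈ S₀
    · rw [hyval _ ((hmemG x hxG h).mpr hh), hyval _ hh]
      have := hφ₀cf ⟨h, hh⟩ (⟨x, hx⟩ : S₀)⁻¹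
      rw [← this]
      congr 1
      apply Subtype.ext
      simp
    · rw [hy0 _ (fun h1 => hh ((hmemG x hxG h).mp h1)), hy0 _ hh]
  have hd : ¬ p ∣ (S ⊓ K).relIndex (K ⊓ G) := by
    have h1 : S ⊓ K ≤ K ⊓ G := le_inf inf_le_right (fun x hx => hSG hx.1)
    have h2 := Subgroup.relIndex_mul_relIndex (S ⊓ K) (K ⊓ G) K h1 inf_le_left
    rw [← h2] at hb3
    exact fun h => hb3 (dvd_mul_of_dvd_left h _)
  obtain ⟨M, hM⟩ := exists_subgroup_index y K G S hSG (frattini Z K hZK p Sb) ha hb hc p b hp.out hd hb1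
  exact ⟨M, by rw [hM, hb2]⟩

end Main

section Induced

open Cfsg Module
open Cfsg.Agent.Lib.Char.Basic Cfsg.Agent.Lib.Char.Ortho Cfsg.Agent.Lib.Char.Complete
open Cfsg.Agent.Lib.Char.Conj Cfsg.Agent.Lib.Char.Clifford Cfsg.Agent.Lib.Char.ClassSum
open Cfsg.Agent.Lib.Char.CliffordCorr Cfsg.Agent.Lib.Char.Induced
open Cfsg.Agent.Lib.BlockH.FullyRam Cfsg.Agent.Lib.BlockH.FullyRam2
open scoped ComplexConjugate

variable {H : Type u} [Group H] [Fintype H] (K : Subgroup H) (hK : K.Normal) [Fintype K]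

include hK in
/-- If `χ` is induced from the normal subgroup `K`, the inertia groups are as small as possible. -/
theorem inertia_eq_of_induced {χ : H → ℂ} (φ₀ : K → ℂ) (hφ₀ : IsCharacter K φ₀)
    (hind : indFun K φ₀ = χ) (S : Subgroup H) [Fintype S] [Fintype (K.subgroupOf S)]
    {Z' : Subgroup S} [Fintype Z'] (hZ' : Z'.Normal) (hZA : Z' ≤ K.subgroupOf S)
    {θ : Z' → ℂ} (hθ : IsIrrCharacter Z' θ) {ψ : S → ℂ} (hψ : IsIrrCharacter S ψ) {e' a : ℕ}
    (he' : e' ^ 2 = Z'.index) (hres : ∀ z : Z', ψ z = (e' : ℂ) * θ z)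
    (hχψ : ∀ s : S, χ s = (a : ℂ) * ψ s) (hcop : Nat.Coprime a (K.subgroupOf S).index)
    (hA : (K.subgroupOf S).Normal) {φ : K.subgroupOf S → ℂ}
    (hφ : IsIrrCharacter (K.subgroupOf S) φ) (hover : classInner (res hZA φ) θ ≠ 0) :
    inertia hA φ = K.subgroupOf S := by
  classical
  let A : Subgroup S := K.subgroupOf S
  obtain ⟨g, hg, hidx⟩ := sq_mul_index hZ' hA hZA hθ hψ he' hres hφ hover
  have hAT : A ≤ inertia hA φ := le_inertia hA (isClassFunction_of_isIrrCharacter hφ)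
  have hr := Subgroup.relIndex_mul_index hAT
  have hTne : (inertia hA φ).index ≠ 0 := Subgroup.index_ne_zero_of_finite
  have hrg : A.relIndex (inertia hA φ) = g ^ 2 := by
    have h1 : A.relIndex (inertia hA φ) * (inertia hA φ).index = g ^ 2 * (inertia hA φ).index := by
      rw [hr]; exact hidx.symm
    exact Nat.eq_of_mul_eq_mul_right (Nat.pos_of_ne_zero hTne) h1
  have hAne : A.index ≠ 0 := Subgroup.index_ne_zero_of_finite
  have hg0 : g ≠ 0 := by
    rintro rfl
    apply hAne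
    show (K.subgroupOf S).index = 0
    rw [← hidx]; simp
  -- the inner product with `χ`
  have hW : classInner (fun y : A => χ ((y : S) : H)) φ = (a : ℂ) * g := by
    have h1 : (fun y : A => χ ((y : S) : H)) = (a : ℂ) • (fun y : A => ψ (y : S)) :=
      funext fun y => by simp [hχψ]
    rw [h1, classInner_smul_left, hg]
  -- the conjugate characters
  let c : H → ℂ := fun u => classInner
    (fun y : A => φ₀ ⟨u * ((y : S) : H) * u⁻¹, hK.conj_mem _ y.2 u⟩) φ
  have hcnat : ∀ u : H, ∃ n : ℕ, c u = n := by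
    intro u
    let f : A →* K :=
      { toFun := fun y => ⟨u * ((y : S) : H) * u⁻¹, hK.conj_mem _ y.2 u⟩
        map_one' := by ext; simp
        map_mul' := fun x y => by ext; simp [mul_assoc] }
    exact exists_nat_classInner (isCharacter_comp f hφ₀) (isCharacter_of_isIrrCharacter hφ)
  have hK0 : (Nat.card K : ℂ) ≠ 0 := Nat.cast_ne_zero.mpr Nat.card_pos.ne'
  have hA0 : (Nat.card A : ℂ) ≠ 0 := Nat.cast_ne_zero.mpr Nat.card_pos.ne'
  have hsum : (Nat.card K : ℂ) * ((a : ℂ) * g) = ∑ u : H, c u := by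
    rw [← hW]
    have hχy : ∀ y : A, χ ((y : S) : H) = (Nat.card K : ℂ)⁻¹ *
        ∑ u : H, φ₀ ⟨u * ((y : S) : H) * u⁻¹, hK.conj_mem _ y.2 u⟩ := by
      intro y
      rw [← hind]
      have h1 := indFun_apply_of_normal hK φ₀ ⟨((y : S) : H), y.2⟩
      simp only [] at h1
      rw [h1]
      congr 1
      rw [← Equiv.sum_comp (Equiv.inv H)]
      refine Finset.sum_congr rfl fun x _ => ?_
      simp only [Equiv.inv_apply, conjOn_apply]
      congr 1
      apply Subtype.ext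
      simp
    have h2 : ∀ y : A, χ ((y : S) : H) * conj (φ y) = (Nat.card K : ℂ)⁻¹ *
        ∑ u : H, φ₀ ⟨u * ((y : S) : H) * u⁻¹, hK.conj_mem _ y.2 u⟩ * conj (φ y) := by
      intro y
      rw [hχy, mul_assoc, Finset.sum_mul]
    unfold classInner
    simp only [c]
    unfold classInner
    simp_rw [h2]
    rw [← Finset.mul_sum, Finset.sum_comm, ← Finset.mul_sum]
    field_simp
  -- invariance
  let T' : Subgroup H := (inertia hA φ).map S.subtype
  have hinvK : ∀ (u k : H), k ∈ K → c (u * k) = c u := by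
    intro u k hk
    simp only [c]
    congr 1
    funext y
    have hφ₀cf := isClassFunction_of_isCharacter hφ₀
    have h1 := hφ₀cf ⟨u * ((y : S) : H) * u⁻¹, hK.conj_mem _ y.2 u⟩ ⟨u * k * u⁻¹, hK.conj_mem _ hk u⟩
    rw [← h1]
    congr 1
    apply Subtype.ext
    simp [mul_assoc]
  have hinvT : ∀ (u t : H), t ∈ T' → c (u * t) = c u := by
    rintro u _ ⟨t, ht, rfl⟩
    simp only [c]
    unfold classInner
    congr 1
    let σ : A ≃ A :=
      { toFun := fun y => ⟨t * y * t⁻¹, hA.conj_mem _ y.2 t⟩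
        invFun := fun y => ⟨t⁻¹ * y * t, by
          have := hA.conj_mem _ y.2 t⁻¹
          simpa using this⟩
        left_inv := fun y => by ext; simp [mul_assoc]
        right_inv := fun y => by ext; simp [mul_assoc] }
    refine (Finset.sum_congr rfl fun y _ => ?_).trans
      (Equiv.sum_comp σ (fun y : A => φ₀ ⟨u * ((y : S) : H) * u⁻¹, hK.conj_mem _ y.2 u⟩ * conj (φ y)))
    have h1 : φ (σ y) = φ y := congrFun ht y
    simp only []
    rw [h1]
    congr 2
    apply Subtype.ext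
    simp [σ, mul_assoc]
  let D : Subgroup H := K ⊔ T'
  let Inv : Subgroup H :=
    { carrier := {d | ∀ u, c (u * d) = c u}
      one_mem' := fun u => by simp
      mul_mem' := fun {x y} hx hy u => by rw [← mul_assoc, hy, hx]
      inv_mem' := fun {x} hx u => by
        have := hx (u * x⁻¹)
        rw [← this]
        simp }
  have hDInv : D ≤ Inv := sup_le (fun k hk u => hinvK u k hk) (fun t ht u => hinvT u t ht)
  letI : Fintype D := Fintype.ofFinite _
  letI : Fintype (H ⧸ D) := Fintype.ofFinite _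
  have hsum2 := Cfsg.Agent.Lib.Char.Central.sum_eq_card_smul_sum_quotient D c (fun g z hz => hDInv hz g)
  -- cardinalities
  have hDcard : Nat.card D = Nat.card K * g ^ 2 := by
    have h1 : K.relIndex D = A.relIndex (inertia hA φ) := by
      show K.relIndex (K ⊔ T') = _
      rw [Subgroup.relIndex_sup_left]
      exact (Subgroup.relIndex_comap (H := K) S.subtype (inertia hA φ)).symm
    rw [hrg] at h1
    have h2 := Subgroup.card_mul_index (K.subgroupOf D)
    have h3 : Nat.card (K.subgroupOf D) = Nat.card K :=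
      Nat.card_congr (Subgroup.subgroupOfEquivOfLe (le_sup_left : K ≤ K ⊔ T')).toEquiv
    rw [h3] at h2
    rw [← h2]
    congr 1
  choose nn hnn using hcnat
  have hfinal : a * g = g ^ 2 * ∑ q : H ⧸ D, nn q.out := by
    have h1 : (Nat.card K : ℂ) * ((a : ℂ) * g) = (Nat.card K : ℂ) * ((g ^ 2 * ∑ q : H ⧸ D, nn q.out : ℕ) : ℂ) := by
      rw [hsum, hsum2, hDcard, nsmul_eq_mul]
      simp_rw [hnn]
      push_cast
      ring
    have h2 := mul_left_cancel₀ hK0 h1
    exact_mod_cast h2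
  have hdvd : g ∣ a := by
    have h1 : g * a = g * (g * ∑ q : H ⧸ D, nn q.out) := by
      calc g * a = a * g := mul_comm _ _
        _ = g ^ 2 * ∑ q : H ⧸ D, nn q.out := hfinal
        _ = _ := by ring
    exact ⟨_, Nat.eq_of_mul_eq_mul_left (Nat.pos_of_ne_zero hg0) h1⟩
  have hdvd2 : g ∣ (K.subgroupOf S).index := ⟨g * (inertia hA φ).index, by rw [← hidx]; ring⟩
  have hg1 : g = 1 := Nat.eq_one_of_dvd_coprimes hcop hdvd hdvd2
  refine inertia_eq_of_one hZ' hA hZA hθ hψ he' hres hφ hover ?_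
  rw [hg, hg1]
  simp

end Induced

end Cfsg.Agent.Lib.BlockH.FullyRam3
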