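import Cfsg.Agent.Lib.BlockH.FullyRam3
import Cfsg.Agent.S0006

/-!
# Sections of fully ramified groups: complements of cyclic Sylow subgroups (S4564), and solvability
of the section when the character is induced (S4563)
-/

set_option autoImplicit false
set_option linter.unusedSectionVars false
set_option linter.style.haveILetI false
set_option linter.unusedVariables false

namespace Cfsg.Agent.Lib.BlockH.FullyRam4

open Cfsg Module
open Cfsg.Agent.Lib.Char.Basic Cfsg.Agent.Lib.Char.Ortho Cfsg.Agent.Lib.Char.Complete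
open Cfsg.Agent.Lib.Char.Conj Cfsg.Agent.Lib.Char.Clifford Cfsg.Agent.Lib.Char.ClassSum
open Cfsg.Agent.Lib.Char.CliffordCorr Cfsg.Agent.Lib.Char.Induced
open Cfsg.Agent.Lib.BlockH.FullyRam Cfsg.Agent.Lib.BlockH.FullyRam2
open Cfsg.Agent.Lib.BlockH.FullyRam3
open scoped ComplexConjugate

universe u

/-- `S4564`: cyclic Sylow subgroups of sections have complements. -/
theorem s4564 {H : Type u} [Group H] [Finite H] (Z : Subgroup H) [hZ : Z.Normal] (χ : IrrCharacter H)
    (hfr : ∃ (θ : IrrCharacter Z) (e : ℕ), e ^ 2 = Z.index ∧ ∀ z : Z, (χ : H → ℂ) z = (e : ℂ) * (θ : Z → ℂ) z)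
    (K : Subgroup H) [hK : K.Normal] (hZK : Z ≤ K) (p : ℕ) [hp : Fact p.Prime] (P : Sylow p (H ⧸ K))
    (hcyc : IsCyclic P) : ∃ M : Subgroup (H ⧸ K), M.IsComplement' (P : Subgroup (H ⧸ K)) := by
  classical
  letI : Fintype H := Fintype.ofFinite _
  letI : Fintype Z := Fintype.ofFinite _
  obtain ⟨θ, e, he, hres⟩ := hfr
  obtain ⟨M, hM⟩ := main_core Z K hZK θ θ.2 e he χ.2 hres p (by
    intro S _ _ _ hZS hSp hq ψ e' a hψ he' hresψ hae ha2 hχψ hA hZA φ hφ hover
    have hZ_S : (Z.subgroupOf S).Normal := hZ.subgroupOf S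
    have hθS : IsIrrCharacter (Z.subgroupOf S) (θ ∘ Subgroup.subgroupOfEquivOfLe hZS) :=
      isIrrCharacter_comp_mulEquiv _ θ.2
    refine inertia_eq_of_cyclic hZ_S hA hZA hθS hψ he' hresψ ?_ hφ hover
    -- cyclicity of `S/(S ∩ K)`
    let f : S →* H ⧸ K := (QuotientGroup.mk' K).comp S.subtype
    have hf : K.subgroupOf S ≤ f.ker := by
      intro x hx
      rw [MonoidHom.mem_ker]
      exact (QuotientGroup.eq_one_iff (x : H)).mpr hx
    let ff : S ⧸ K.subgroupOf S →* H ⧸ K := QuotientGroup.lift (K.subgroupOf S) f hf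
    have hinj : Function.Injective ff := by
      rw [injective_iff_map_eq_one]
      intro q
      obtain ⟨x, rfl⟩ := QuotientGroup.mk_surjective q
      intro hx
      have h1 : ((x : H) : H ⧸ K) = 1 := hx
      exact (QuotientGroup.eq_one_iff x).mpr ((QuotientGroup.eq_one_iff (x : H)).mp h1)
    have hpg : IsPGroup p (S ⧸ K.subgroupOf S) := by
      obtain ⟨c, hc⟩ := hq
      have h1 : K.relIndex S ∣ Z.relIndex S := Subgroup.relIndex_dvd_of_le_left S hZK
      rw [hc] at h1
      obtain ⟨b, _, hb⟩ := (Nat.dvd_prime_pow hp.out).mp h1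
      refine IsPGroup.of_card (n := b) ?_
      rw [← Subgroup.index_eq_card]
      exact hb
    have hR : IsPGroup p ff.range := hpg.of_surjective ff.rangeRestrict ff.rangeRestrict_surjective
    obtain ⟨P', hP'⟩ := hR.exists_le_sylow
    have hcyc' : IsCyclic P' := by
      exact isCyclic_of_surjective (P.equiv P') (P.equiv P').surjective
    let g : S ⧸ K.subgroupOf S →* P' := ff.codRestrict (P' : Subgroup (H ⧸ K)) (fun x => hP' ⟨x, rfl⟩)
    have hg : Function.Injective g := by
      intro a b hab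
      apply hinj
      exact congrArg Subtype.val hab
    exact isCyclic_of_injective g hg)
  have hcardP : Nat.card P = p ^ K.index.factorization p := by
    rw [Sylow.card_eq_multiplicity, Subgroup.index_eq_card]
  have hcardM : Nat.card M * p ^ K.index.factorization p = K.index := by
    rw [← hM, Subgroup.card_mul_index, Subgroup.index_eq_card]
  refine ⟨M, Subgroup.isComplement'_of_coprime ?_ ?_⟩
  · rw [hcardP, hcardM, Subgroup.index_eq_card]
  · rw [hcardP]
    refine Nat.Coprime.pow_right _ ?_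
    rw [Nat.coprime_comm, Nat.Prime.coprime_iff_not_dvd hp.out]
    intro hdvd
    have hne : K.index ≠ 0 := Subgroup.index_ne_zero_of_finite
    apply Nat.pow_succ_factorization_not_dvd hne hp.out
    calc p ^ (K.index.factorization p + 1) = p * p ^ K.index.factorization p := pow_succ' _ _
      _ ∣ Nat.card M * p ^ K.index.factorization p := mul_dvd_mul_right hdvd _
      _ = K.index := hcardM

/-- `S4563`: if a fully ramified character is induced from a normal subgroup `K ⊇ Z`, then `H/K` is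
solvable. -/
theorem s4563 {H : Type u} [Group H] [Fintype H] (Z : Subgroup H) [hZ : Z.Normal] (χ : IrrCharacter H)
    (hfr : ∃ (θ : IrrCharacter Z) (e : ℕ), e ^ 2 = Z.index ∧ ∀ z : Z, (χ : H → ℂ) z = (e : ℂ) * (θ : Z → ℂ) z)
    (K : Subgroup H) [hK : K.Normal] [Fintype K] (hZK : Z ≤ K) (φ : K → ℂ) (hφ : IsCharacter K φ)
    (hind : indFun K φ = (χ : H → ℂ)) :
    Group.IsSolvable (H ⧸ K) ∧ (Group.IsSolvable K → Group.IsSolvable H) := by
  classical
  letI : Fintype Z := Fintype.ofFinite _
  obtain ⟨θ, e, he, hres⟩ := hfr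
  have hsolv : Group.IsSolvable (H ⧸ K) := by
    refine Cfsg.Agent.S0006.result fun p hpp => ?_
    haveI hp : Fact p.Prime := ⟨hpp⟩
    obtain ⟨M, hM⟩ := main_core Z K hZK θ θ.2 e he χ.2 hres p (by
      intro S _ _ _ hZS hSp hq ψ e' a hψ he' hresψ hae ha2 hχψ hA hZA φ' hφ' hover
      have hZ_S : (Z.subgroupOf S).Normal := hZ.subgroupOf S
      have hθS : IsIrrCharacter (Z.subgroupOf S) (θ ∘ Subgroup.subgroupOfEquivOfLe hZS) :=
        isIrrCharacter_comp_mulEquiv _ θ.2
      refine inertia_eq_of_induced K hK φ hφ hind S hZ_S hZA hθS hψ he' hresψ hχψ ?_ hA hφ' hover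
      -- coprimality
      have ha : ¬ p ∣ a := by
        intro hdvd
        apply hSp
        rw [← ha2]
        exact dvd_trans hdvd (dvd_pow_self a two_ne_zero)
      obtain ⟨c, hc⟩ := hq
      have h1 : K.relIndex S ∣ Z.relIndex S := Subgroup.relIndex_dvd_of_le_left S hZK
      rw [hc] at h1
      obtain ⟨b, _, hb⟩ := (Nat.dvd_prime_pow hpp).mp h1
      have h2 : (K.subgroupOf S).index = p ^ b := hb
      rw [h2]
      exact Nat.Coprime.pow_right _ (((Nat.Prime.coprime_iff_not_dvd hpp).mpr ha).symm))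
    refine ⟨M, ?_⟩
    rw [hM, Subgroup.index_eq_card]
  refine ⟨hsolv, fun hKs => ?_⟩
  exact Group.isSolvable_of_ker_le_range K.subtype (QuotientGroup.mk' K) (by
    intro x hx
    rw [MonoidHom.mem_ker] at hx
    exact ⟨⟨x, (QuotientGroup.eq_one_iff x).mp hx⟩, rfl⟩)

end Cfsg.Agent.Lib.BlockH.FullyRam4
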